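import Cfsg.Agent.H50.HerLen
import Cfsg.Agent.H219.HerUniq

/-!
# Additive labels of a finite building (helper985, S2196 part B3)

* `Ad cs n e` : `n w = ∑ e i` over a reduced word of `w`;
* `exists_len` : the spheres of a building with a system `Sys` have `p ^ n w` chambers, `n` additive;
* `Ad.lab_legal` : a legal word from `i ∉ J` is the inverse of a `J`-minimal element; `Ad.eq_of_three` : `M i j = 3`, `e i = e j`.
-/

set_option autoImplicit false
set_option linter.unusedSectionVars false
set_option linter.style.haveILetI false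

namespace Cfsg.Agent.H985.UT

open Cfsg.Agent.Tits.Core Cfsg.Agent.Tits.Core.Bldg Cfsg.Agent.Tits.Exchange Cfsg.Agent.Tits
open Cfsg.Agent.FixBN Cfsg.Agent.FixBN.Cox Cfsg.Agent.Omega.CR Cfsg.Agent.Omega.CR.Bl Cfsg.Agent.H905.DC
open Cfsg.Agent.H50.Her

section

variable {I : Type*} {M : CoxeterMatrix I} {W : Type*} [Group W] (cs : CoxeterSystem M W)

local prefix:100 "ℓ" => cs.length

/-- `n w` is the sum of the `e i` over a reduced word of `w`. -/
structure Ad (n : W → ℕ) (e : I → ℕ) : Prop where
  red : ∀ ω : List I, cs.IsReduced ω → n (cs.wordProd ω) = (ω.map e).sum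

variable {cs} {n : W → ℕ} {e : I → ℕ}

theorem Ad.one (h : Ad cs n e) : n 1 = 0 := by
  have := h.red [] (by simp [CoxeterSystem.IsReduced])
  simpa using this

theorem Ad.mul (h : Ad cs n e) {w : W} {i : I} (hw : ℓ (w * cs.simple i) = ℓ w + 1) :
    n (w * cs.simple i) = n w + e i := by
  obtain ⟨ω, hω, rfl⟩ := cs.exists_isReduced w
  have h1 : cs.IsReduced (ω ++ [i]) := by
    unfold CoxeterSystem.IsReduced
    rw [cs.wordProd_append, cs.wordProd_singleton, hw, hω.eq, List.length_append, List.length_singleton]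
  have h2 := h.red _ h1
  rw [cs.wordProd_append, cs.wordProd_singleton, List.map_append, List.sum_append] at h2
  rw [h2, h.red ω hω]
  simp

theorem Ad.inv (h : Ad cs n e) (w : W) : n w⁻¹ = n w := by
  obtain ⟨ω, hω, rfl⟩ := cs.exists_isReduced w
  rw [← cs.wordProd_reverse, h.red _ hω.reverse, h.red _ hω, List.map_reverse, List.sum_reverse]

theorem Ad.simple (h : Ad cs n e) (i : I) : n (cs.simple i) = e i := by
  have := h.mul (w := 1) (i := i) (by rw [one_mul, cs.length_simple, cs.length_one])
  rwa [one_mul, h.one, zero_add] at this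

/-- labels are divisible by `r` if the `e i` are -/
theorem Ad.dvd (h : Ad cs n e) {r : ℕ} (he : ∀ i, r ∣ e i) (w : W) : r ∣ n w := by
  obtain ⟨ω, hω, rfl⟩ := cs.exists_isReduced w
  rw [h.red _ hω]
  apply List.dvd_sum
  intro x hx
  obtain ⟨i, -, rfl⟩ := List.mem_map.1 hx
  exact he i

end

section

variable {I W : Type*} [Fintype I] [DecidableEq I] [Group W] {M : CoxeterMatrix I}
  {cs : CoxeterSystem M W} {n : W → ℕ} {e : I → ℕ}

open Cfsg.Agent.ChevalleyStructure.CoxeterGeom Cfsg.Agent.Tits.Roots Cfsg.Agent.H219.HerUniq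

/-- a legal word from `i ∉ J` -/
theorem Ad.lab_legal (hn : Ad cs n e) {A : I → I → ℤ} (h : IsCartan M A) {J : Set I} {i : I} (hi : i ∉ J)
    {ω : List I} (hω : Legal A (Pi.single i 1) ω) :
    IsMinR cs J (cs.wordProd ω)⁻¹ ∧ n (cs.wordProd ω)⁻¹ = (ω.map e).sum := by
  have hone : IsMinL cs J 1 := by
    intro u _
    rw [mul_one, cs.length_one, add_zero]
  have hco : co cs h i 1 = Pi.single i 1 := by rw [co_one]; rfl
  have h3 := minL_of_legal cs h hi ω 1 hone (by rw [hco]; exact hω)
  rw [one_mul, cs.length_one, zero_add] at h3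
  refine ⟨isMinR_inv_iff cs |>.2 h3.1, ?_⟩
  rw [hn.inv]
  exact hn.red ω h3.2

theorem cartan_three {A : I → I → ℤ} (h : IsCartan M A) {i j : I} (hij : M i j = 3) : A i j = -1 ∧ A j i = -1 := by
  have hne : i ≠ j := by
    rintro rfl
    rw [M.diagonal] at hij
    omega
  rcases h.rel i j hne with ⟨h1, -⟩ | ⟨-, h2, h3⟩ | ⟨h1, -⟩ | ⟨h1, -⟩
  · omega
  · exact ⟨h2, h3⟩
  · omega
  · omega

/-- braid relations of length three -/
theorem Ad.eq_of_three (hn : Ad cs n e) {A : I → I → ℤ} (h : IsCartan M A) {i j : I} (hij : M i j = 3) :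
    e i = e j := by
  have hne : i ≠ j := by
    rintro rfl
    rw [CoxeterMatrix.diagonal] at hij
    omega
  have hji : M j i = 3 := by rw [M.symmetric]; exact hij
  have key : ∀ i j : I, i ≠ j → M i j = 3 → n (cs.simple i * cs.simple j * cs.simple i) = e i + e j + e i := by
    intro i j hne hij
    have hA : A i j = -1 ∧ A j i = -1 := cartan_three h hij
    have h1 : cs.length (cs.simple i * cs.simple j) = cs.length (cs.simple i) + 1 := by
      have h2 : 0 ≤ rep cs h (cs.simple i) (sr j) := by
        intro m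
        rw [rep_simple, sr, refl_single, mul_one]
        change 0 ≤ (Pi.single j 1 : I → ℤ) m - (Pi.single i (A i j) : I → ℤ) m
        rw [Pi.single_apply, Pi.single_apply, hA.1]
        split_ifs <;> omega
      have h7 := (lt_iff' cs h (cs.simple i) j).2 h2
      rcases cs.length_mul_simple (cs.simple i) j with h8 | h8 <;> omega
    have h2 : cs.length (cs.simple i * cs.simple j * cs.simple i) = cs.length (cs.simple i * cs.simple j) + 1 := by
      have h3 : 0 ≤ rep cs h (cs.simple i * cs.simple j) (sr i) := by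
        intro m
        rw [map_mul]
        change 0 ≤ rep cs h (cs.simple i) (rep cs h (cs.simple j) (sr i)) m
        have e1 : rep cs h (cs.simple j) (sr i) = sr i + sr j := by
          rw [rep_simple, sr, refl_single, mul_one, hA.2]
          funext l
          change (Pi.single i 1 : I → ℤ) l - (Pi.single j (-1) : I → ℤ) l = (Pi.single i 1 : I → ℤ) l + (Pi.single j 1 : I → ℤ) l
          rw [Pi.single_apply, Pi.single_apply, Pi.single_apply]
          split_ifs <;> omega
        rw [e1, map_add, rep_simple_sr]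
        have e2 : rep cs h (cs.simple i) (sr j) = sr j + sr i := by
          rw [rep_simple, sr, refl_single, mul_one, hA.1]
          funext l
          change (Pi.single j 1 : I → ℤ) l - (Pi.single i (-1) : I → ℤ) l = (Pi.single j 1 : I → ℤ) l + (Pi.single i 1 : I → ℤ) l
          rw [Pi.single_apply, Pi.single_apply, Pi.single_apply]
          split_ifs <;> omega
        rw [e2]
        change 0 ≤ -(sr i : I → ℤ) m + (sr j m + sr i m)
        have h5 : 0 ≤ (sr j : I → ℤ) m := sr_nonneg j m
        omega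
      have h7 := (lt_iff' cs h (cs.simple i * cs.simple j) i).2 h3
      rcases cs.length_mul_simple (cs.simple i * cs.simple j) i with h8 | h8 <;> omega
    rw [hn.mul h2, hn.mul h1, hn.simple]
  have h1 := key i j hne hij
  have h2 := key j i hne.symm hji
  have h3 : cs.simple i * cs.simple j * cs.simple i = cs.simple j * cs.simple i * cs.simple j := by
    have h4 := cs.simple_mul_simple_pow i j
    rw [hij] at h4
    have h5 : (cs.simple i * cs.simple j) ^ 3 = cs.simple i * cs.simple j * cs.simple i *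
        (cs.simple j * cs.simple i * cs.simple j) := by
      simp only [pow_succ, pow_zero, one_mul, mul_assoc]
    rw [h5] at h4
    have h6 := eq_inv_of_mul_eq_one_left h4
    rw [h6, mul_inv_rev, mul_inv_rev, cs.inv_simple, cs.inv_simple, mul_assoc]
  rw [h3, h2] at h1
  omega

end

section

variable {I : Type*} {M : CoxeterMatrix I} {W : Type*} [Group W] {cs : CoxeterSystem M W} {C : Type*}
  {Δ : Bldg cs C}
variable {G : Type*} [Group G] [MulAction G C] {p : ℕ} (S : Sys Δ G p) [F : OppRes.Cox cs]

include S in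
/-- **The numbers of chambers of the spheres.** -/
theorem exists_len [Finite W] [Fintype C] [hp : Fact p.Prime] (hth : Δ.Thick) [Finite G] (x₀ : C) :
    ∃ (n : W → ℕ) (e : I → ℕ), (∀ x w, Nat.card {z : C // Δ.δ x z = w} = p ^ n w) ∧ Ad cs n e ∧ ∀ i, 0 < e i := by
  classical
  have hpan : ∀ i, ∃ e : ℕ, 0 < e ∧ Nat.card {z : C // Δ.δ x₀ z = cs.simple i} = p ^ e := by
    intro i
    obtain ⟨y, z, hyz, hy, hz⟩ := hth x₀ i
    have h1 : (MulAction.orbit (S.U x₀) y) = {z : C | Δ.δ x₀ z = cs.simple i} := by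
      ext w
      constructor
      · rintro ⟨u, rfl⟩
        change Δ.δ x₀ (u.1 • y) = _
        rw [S.δ_smul u.2, hy]
      · intro hw
        obtain ⟨u, hu, e⟩ := S.exists_move (x := x₀) (hy.trans (show Δ.δ x₀ w = _ from hw).symm)
        exact ⟨⟨u, hu⟩, e⟩
    have h2 : Nat.card (MulAction.orbit (S.U x₀) y) ∣ Nat.card (S.U x₀) := by
      rw [Nat.card_congr (MulAction.orbitEquivQuotientStabilizer (S.U x₀) y)]
      exact Subgroup.card_quotient_dvd_card _
    obtain ⟨k, hk⟩ := IsPGroup.iff_card.1 (S.isP x₀)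
    rw [hk] at h2
    obtain ⟨e, -, he⟩ := (Nat.dvd_prime_pow hp.out).1 h2
    have h3 : Nat.card {z : C // Δ.δ x₀ z = cs.simple i} = p ^ e := by
      rw [← he, h1]
      rfl
    refine ⟨e, ?_, h3⟩
    rw [Nat.pos_iff_ne_zero]
    rintro rfl
    rw [pow_zero] at h3
    have h4 := (Nat.card_eq_one_iff_unique.1 h3).1
    exact hyz (congrArg Subtype.val (h4.elim ⟨y, hy⟩ ⟨z, hz⟩))
  choose e he0 he using hpan
  have hall : ∀ x i, Nat.card {z : C // Δ.δ x z = cs.simple i} = p ^ e i := by
    intro x i
    obtain ⟨g, rfl⟩ := Cfsg.Agent.Omega.ML.LieRow.exists_smul_top S hth x₀ x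
    rw [← he i]
    symm
    refine Nat.card_congr ⟨fun z => ⟨g • z.1, by rw [S.iso]; exact z.2⟩, fun z => ⟨g⁻¹ • z.1, ?_⟩, ?_, ?_⟩
    · have := S.iso g x₀ (g⁻¹ • z.1)
      rw [smul_inv_smul] at this
      rw [← this]
      exact z.2
    · intro z
      exact Subtype.ext (inv_smul_smul g z.1)
    · intro z
      exact Subtype.ext (smul_inv_smul g z.1)
  have hsph : ∀ x (ω : List I), cs.IsReduced ω → Nat.card {z : C // Δ.δ x z = cs.wordProd ω} = p ^ (ω.map e).sum := by
    intro x ω hω
    rw [Opp.card_sphere Δ (q := fun i => p ^ e i) (fun i y => by rw [card_Pan_eq', hall])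
      (fun i => Nat.pow_pos hp.out.pos) x hω]
    clear hω
    induction ω with
    | nil => simp
    | cons i ω ih => rw [List.map_cons, List.prod_cons, ih, List.map_cons, List.sum_cons, pow_add]
  choose ω hω hω' using fun w => cs.exists_isReduced w
  refine ⟨fun w => ((ω w).map e).sum, e, ?_, ⟨?_⟩, he0⟩
  · intro x w
    conv_lhs => rw [hω' w]
    exact hsph x _ (hω w)
  · intro υ hυ
    apply Nat.pow_right_injective hp.out.two_le
    change p ^ ((ω (cs.wordProd υ)).map e).sum = p ^ (υ.map e).sum
    rw [← hsph x₀ _ (hω _), ← hsph x₀ _ hυ, ← hω']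

end

end Cfsg.Agent.H985.UT
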