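import Cfsg.Agent.H985.UT.Fam
import Cfsg.Agent.H918.UBase
import Cfsg.Agent.H905.DCWrap
import Cfsg.Agent.H950.UCount
import Cfsg.Agent.H920.CsData

/-!
# Subgroups of `SU_n(q)` transitive on the isotropic points: the defining characteristic (helper985, S2196 part B3)

`IsoTrans K` : `K` is transitive on the isotropic points. **`trans_defchar`** : a proper subgroup `K` of `SU_n(q)`, `n ≥ 6`, with a
residual core of Lie type in the characteristic of the field is not transitive on the isotropic points.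
-/

set_option autoImplicit false
set_option linter.unusedSectionVars false
set_option linter.style.haveILetI false

namespace Cfsg.Agent.H985.UT

open Cfsg Cfsg.Geo Matrix Cfsg.Agent.H918 Cfsg.Agent.LieClassical.HermBasic Cfsg.Agent.H905.DC
open Cfsg.Agent.Omega.CR

/-- `K` is transitive on the isotropic points. -/
def IsoTrans {F : Type*} [Field F] {n q : ℕ} (K : Subgroup (GL (Fin n) F)) : Prop :=
  ∀ v w : Fin n → F, v ≠ 0 → hermForm n F q v v = 0 → w ≠ 0 → hermForm n F q w w = 0 →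
    ∃ g ∈ K, ∃ c : F, (g : Matrix (Fin n) (Fin n) F) *ᵥ v = c • w

section

variable {F : Type*} [Field F] [Fintype F] {n q : ℕ} (hF : Fintype.card F = q ^ 2)

/-- the form as a map to the dual -/
def bet (n : ℕ) (F : Type*) [Field F] (q : ℕ) (w : Fin n → F) : Module.Dual F (Fin n → F) where
  toFun v := hermForm n F q v w
  map_add' v v' := herm_add_left v v' w
  map_smul' c v := herm_smul_left c v w

theorem bet_apply (w v : Fin n → F) : bet n F q w v = hermForm n F q v w := rfl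

include hF

theorem frm_natRep {P : Subgroup (GL (Fin n) F)} (hP : P ≤ SUg n F q) : Frm (natRep P) (bet n F q) where
  add w w' := by
    refine LinearMap.ext fun v => ?_
    exact herm_add_right hF v w w'
  inv g w v := by
    change hermForm n F q _ _ = hermForm n F q _ _
    rw [natRep_apply, natRep_apply]
    exact (mem_SUg.1 (hP g.2)).1 v w
  symm v w h := herm_eq_zero_swap hF h
  nondeg w h := by
    by_contra hw
    obtain ⟨v, hv⟩ := exists_herm_ne_zero hF hw
    apply hv
    apply herm_eq_zero_swap hF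
    have h1 : bet n F q w v = 0 := by rw [h]; rfl
    exact h1

omit hF in
theorem mulVec_ne_zero {g : GL (Fin n) F} {v : Fin n → F} (hv : v ≠ 0) : (g : Matrix (Fin n) (Fin n) F) *ᵥ v ≠ 0 := by
  intro h
  apply hv
  have h1 : (g⁻¹ : GL (Fin n) F).1 *ᵥ (g.1 *ᵥ v) = v := by
    rw [Matrix.mulVec_mulVec, Units.inv_mul, Matrix.one_mulVec]
  rw [← h1]
  change (g⁻¹ : GL (Fin n) F).1 *ᵥ ((g : Matrix (Fin n) (Fin n) F) *ᵥ v) = 0
  rw [h, Matrix.mulVec_zero]

/-- the isotropic vectors are fixed by Sylow subgroups -/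
theorem exists_syl {P K : Subgroup (GL (Fin n) F)} (hP : P ≤ SUg n F q) (hK : ∀ h ∈ K, ∀ x ∈ P, h * x * h⁻¹ ∈ P)
    (htr : IsoTrans (q := q) K) {p : ℕ} [Fact p.Prime] (hn : ¬ p ∣ H950.isoNum q n) (v : Fin n → F) (hv : v ≠ 0)
    (hvi : hermForm n F q v v = 0) : ∃ Q : Subgroup P, IsPGroup p Q ∧
      (∀ Q' : Subgroup P, IsPGroup p Q' → Nat.card Q' ≤ Nat.card Q) ∧ ∀ g ∈ Q, natRep P g v = v := by
  classical
  obtain ⟨Q⟩ : Nonempty (Sylow p P) := inferInstance
  -- a fixed vector of `Q`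
  let X := {β : Fin n → F // hermForm n F q β β = 0 ∧ β ≠ 0}
  letI : MulAction Q X :=
    { smul := fun g x => ⟨((g : P) : GL (Fin n) F).1 *ᵥ x.1, by
        rw [(mem_SUg.1 (hP (g : P).2)).1]; exact x.2.1, mulVec_ne_zero x.2.2⟩
      one_smul := fun x => Subtype.ext (Matrix.one_mulVec _)
      mul_smul := fun g h x => Subtype.ext (by
        change (((g * h : Q) : P) : GL (Fin n) F).1 *ᵥ x.1 = ((g : P) : GL (Fin n) F).1 *ᵥ (((h : P) : GL (Fin n) F).1 *ᵥ x.1)
        rw [Matrix.mulVec_mulVec]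
        rfl) }
  have hX : Nat.card X = H950.isoNum q n := H950.card_iso_ne_zero hF n
  obtain ⟨⟨v₀, h01, h02⟩, hfix⟩ := Q.isPGroup'.nonempty_fixed_point_of_prime_not_dvd_card X (by rwa [hX])
  obtain ⟨h, hh, c, hc⟩ := htr v₀ v h02 h01 hv hvi
  have hc0 : c ≠ 0 := by
    rintro rfl
    rw [zero_smul] at hc
    exact mulVec_ne_zero h02 hc
  -- conjugation by `h`
  let f : P →* P :=
    { toFun := fun x => ⟨h * x * h⁻¹, hK h hh x x.2⟩
      map_one' := Subtype.ext (by simp)
      map_mul' := fun x y => Subtype.ext (by simp [mul_assoc]) }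
  have hfinj : Function.Injective f := by
    intro x y hxy
    have h1 : h * (x : GL (Fin n) F) * h⁻¹ = h * y * h⁻¹ := congrArg Subtype.val hxy
    exact Subtype.ext (mul_left_cancel (mul_right_cancel h1))
  refine ⟨(Q : Subgroup P).map f, Q.isPGroup'.map f, fun Q' hQ' => ?_, ?_⟩
  · rw [Subgroup.card_map_of_injective hfinj]
    obtain ⟨Q'', hQ''⟩ := hQ'.exists_le_sylow
    rw [Nat.card_congr (Sylow.equiv Q Q'').toEquiv]
    exact Subgroup.card_le_of_le hQ''
  · rintro _ ⟨x, hx, rfl⟩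
    rw [natRep_apply]
    change (h * (x : GL (Fin n) F) * h⁻¹).1 *ᵥ v = v
    have h1 : (x : GL (Fin n) F).1 *ᵥ v₀ = v₀ := congrArg Subtype.val (hfix ⟨x, hx⟩)
    have h2 : v = c⁻¹ • (h.1 *ᵥ v₀) := by
      rw [hc, smul_smul, inv_mul_cancel₀ hc0, one_smul]
    have h3 : (h * (x : GL (Fin n) F) * h⁻¹).1 *ᵥ (h.1 *ᵥ v₀) = h.1 *ᵥ v₀ := by
      rw [Matrix.mulVec_mulVec]
      change ((h * (x : GL (Fin n) F) * h⁻¹) * h).1 *ᵥ v₀ = _
      rw [inv_mul_cancel_right]
      change (h.1 * (x : GL (Fin n) F).1) *ᵥ v₀ = _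
      rw [← Matrix.mulVec_mulVec, h1]
    rw [h2, Matrix.mulVec_smul, h3]

/-- the centre of an absolutely irreducible group is a `p'`-group -/
theorem coprime_center {P : Subgroup (GL (Fin n) F)} (habs : ActsAbsolutelyIrreducibly (matrixSet P)) {p : ℕ}
    [hp : Fact p.Prime] [CharP F p] (hn : 0 < n) : (Nat.card (Subgroup.center P)).Coprime p := by
  rw [Nat.coprime_comm, Nat.Prime.coprime_iff_not_dvd hp.out]
  intro hd
  obtain ⟨z, hz⟩ := exists_prime_orderOf_dvd_card' p hd
  have h1 : z.1 ^ p = 1 := by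
    have := pow_orderOf_eq_one z
    rw [hz] at this
    exact congrArg Subtype.val this
  obtain ⟨c, hc⟩ := (mem_scalars_iff _).1 (H920.mem_scalars_of_mem_center habs z.2)
  have h2 : ((z.1 : GL (Fin n) F) ^ p) = 1 := congrArg Subtype.val h1
  have h3 : ((c : F) • (1 : Matrix (Fin n) (Fin n) F)) ^ p = 1 := by
    rw [← hc, ← Units.val_pow_eq_pow_val, h2]
    rfl
  rw [smul_pow, one_pow] at h3
  have h4 : (c : F) ^ p = 1 := by
    have h5 := congrFun (congrFun h3 ⟨0, hn⟩) ⟨0, hn⟩
    rw [Matrix.smul_apply, Matrix.one_apply_eq, smul_eq_mul, mul_one] at h5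
    exact h5
  have h6 : (c : F) = 1 := by
    have h7 : ((c : F) - 1) ^ p = 0 := by
      rw [sub_pow_char, h4, one_pow, sub_self]
    exact sub_eq_zero.1 (pow_eq_zero_iff hp.out.ne_zero |>.1 h7)
  have h8 : z = 1 := by
    apply Subtype.ext
    apply Subtype.ext
    apply Units.ext
    rw [hc, h6, one_smul]
    rfl
  rw [h8, orderOf_one] at hz
  exact hp.out.one_lt.ne hz

theorem uc_of_core {P K : Subgroup (GL (Fin n) F)} (hn : 6 ≤ n) (hP : P ≤ SUg n F q)
    (hc : IsResidualCore K P) (htr : IsoTrans (q := q) K) {p a : ℕ} [hp : Fact p.Prime] [CharP F p] (ha : q = p ^ a) :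
    ∃ m c, UC p (natRep P) (bet n F q) a m c ∧ ((n = 2 * m ∧ c + 1 = 2 * m) ∨ (n = 2 * m + 1 ∧ c = 2 * m + 1)) := by
  have hq := two_le hF
  have ha0 : 0 < a := by
    rw [Nat.pos_iff_ne_zero]
    rintro rfl
    rw [pow_zero] at ha
    omega
  obtain ⟨m, hm⟩ : ∃ m, n = 2 * m ∨ n = 2 * m + 1 := ⟨n / 2, by omega⟩
  have hpq : p ∣ q := by rw [ha]; exact dvd_pow_self p ha0.ne'
  have hq2 : q ^ 2 = p ^ (2 * a) := by rw [ha, ← pow_mul, mul_comm]
  have hnotdvd : ∀ j, j ≠ 0 → ¬ p ∣ q ^ j - 1 := by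
    intro j hj h
    have h1 : p ∣ q ^ j := hpq.trans (dvd_pow_self q hj)
    have h2 : 1 ≤ q ^ j := Nat.one_le_pow _ _ (by omega)
    have h3 := Nat.dvd_sub h1 h
    rw [Nat.sub_sub_self h2] at h3
    exact hp.out.one_lt.ne' (Nat.dvd_one.1 h3)
  have hnotdvd' : ∀ j, j ≠ 0 → ¬ p ∣ q ^ j + 1 := by
    intro j hj h
    have h1 : p ∣ q ^ j := hpq.trans (dvd_pow_self q hj)
    exact hp.out.one_lt.ne' (Nat.dvd_one.1 ((Nat.dvd_add_right h1).1 h))
  have hiso : ¬ p ∣ H950.isoNum q n := by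
    unfold H950.isoNum
    split_ifs
    · intro h
      rcases hp.out.dvd_mul.1 h with h | h
      · exact hnotdvd n (by omega) h
      · exact hnotdvd' (n - 1) (by omega) h
    · intro h
      rcases hp.out.dvd_mul.1 h with h | h
      · exact hnotdvd' n (by omega) h
      · exact hnotdvd (n - 1) (by omega) h
  have hcnt : ∀ c, ((n = 2 * m ∧ c + 1 = 2 * m) ∨ (n = 2 * m + 1 ∧ c = 2 * m + 1)) →
      H950.isoNum q n = ((p ^ (2 * a)) ^ m - 1) * (p ^ (a * c) + 1) := by
    intro c hcc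
    have e1 : (p ^ (2 * a)) ^ m = q ^ (2 * m) := by rw [← hq2, ← pow_mul]
    have e2 : p ^ (a * c) = q ^ c := by rw [pow_mul, ← ha]
    rw [e1, e2]
    unfold H950.isoNum
    rcases hcc with ⟨rfl, h2⟩ | ⟨rfl, rfl⟩
    · rw [if_pos ⟨m, by ring⟩, show 2 * m - 1 = c by omega]
    · rw [if_neg (by rw [Nat.not_even_iff_odd]; exact ⟨m, rfl⟩), Nat.add_sub_cancel]
      ring
  have hirr : ∀ L : Submodule F (Fin n → F), Ivt (natRep P) ⊤ L → L = ⊥ ∨ L = ⊤ := by
    intro L hL
    apply hc.absIrred.1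
    rintro _ ⟨g, hg, rfl⟩
    rintro _ ⟨v, hv, rfl⟩
    exact hL ⟨g, hg⟩ trivial v hv
  have habs : ∀ f : Module.End F (Fin n → F), (∀ g v, f (natRep P g v) = natRep P g (f v)) → ∃ c : F, ∀ v, f v = c • v := by
    intro f hf
    obtain ⟨c, hcc⟩ := hc.absIrred.2 (LinearMap.toMatrix' f) (by
      rintro _ ⟨g, hg, rfl⟩
      apply Matrix.toLin'.injective
      rw [Matrix.toLin'_mul, Matrix.toLin'_mul, Matrix.toLin'_toMatrix']
      refine LinearMap.ext fun v => ?_
      exact hf ⟨g, hg⟩ v)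
    refine ⟨c, fun v => ?_⟩
    have h1 : Matrix.toLin' (LinearMap.toMatrix' f) v = c • v := by
      rw [hcc, Matrix.toLin'_apply, Matrix.smul_mulVec, Matrix.one_mulVec]
    rwa [Matrix.toLin'_toMatrix'] at h1
  have hinj : Function.Injective (natRep P) := by
    intro g h e
    apply Subtype.ext
    apply Units.ext
    apply Matrix.toLin'.injective
    exact e
  have hcen : (scalars (Fin n) F).subgroupOf P = Subgroup.center P := by
    apply le_antisymm
    · intro x hx
      exact H920.mem_center_of_mem_scalars hc.absIrred hx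
    · intro x hx
      exact H920.mem_scalars_of_mem_center hc.absIrred hx
  have hsimple : IsSimpleGroup (P ⧸ Subgroup.center P) := by
    have := hc.simple
    exact (QuotientGroup.quotientMulEquivOfEq hcen).symm.isSimpleGroup
  have hfin : Module.finrank F (Fin n → F) = n := by rw [Module.finrank_fintype_fun_eq_card, Fintype.card_fin]
  have hcard : Nat.card {v : Fin n → F // v ≠ 0 ∧ bet n F q v v = 0} = H950.isoNum q n := by
    rw [← H950.card_iso_ne_zero hF n]
    exact Nat.card_congr (Equiv.subtypeEquivRight fun v => and_comm)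
  have key : ∀ c, ((n = 2 * m ∧ c + 1 = 2 * m) ∨ (n = 2 * m + 1 ∧ c = 2 * m + 1)) →
      UC p (natRep P) (bet n F q) a m c := by
    intro c hcc
    refine ⟨hirr, habs, hinj, frm_natRep hF hP, fun v hv hvi => exists_syl hF hP hc.normal htr hiso v hv hvi, ha0,
      ?_, by omega, ?_, by omega, by omega, ?_, ?_, hsimple, coprime_center hF hc.absIrred (by omega)⟩
    · rw [Nat.card_eq_fintype_card, hF, hq2]
    · rcases hcc with ⟨-, h⟩ | ⟨-, h⟩
      · exact ⟨m - 1, by omega⟩
      · exact ⟨m, h⟩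
    · rw [hfin]; omega
    · rw [hcard]
      exact hcnt c hcc
  rcases hm with h1 | h1
  · exact ⟨m, 2 * m - 1, key _ (Or.inl ⟨h1, by omega⟩), Or.inl ⟨h1, by omega⟩⟩
  · exact ⟨m, 2 * m + 1, key _ (Or.inr ⟨h1, rfl⟩), Or.inr ⟨h1, rfl⟩⟩

/-- **The defining characteristic.** -/
theorem trans_defchar {P K : Subgroup (GL (Fin n) F)} (hn : 6 ≤ n) (hK : K < SUg n F q)
    (hc : IsResidualCore K P) (htr : IsoTrans (q := q) K) {p : ℕ} [hp : Fact p.Prime] [CharP F p]
    (hlie : IsLieTypeChar p (P ⧸ (scalars (Fin n) F).subgroupOf P)) : False := by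
  have hP : P ≤ SUg n F q := hc.le.trans hK.le
  obtain ⟨a, ha⟩ : ∃ a, q = p ^ a := by
    obtain ⟨s, hs, hcs⟩ := FiniteField.card F p
    have h1 : q ∣ p ^ (s : ℕ) := by rw [← hcs, hF]; exact Dvd.intro _ (pow_two q).symm
    obtain ⟨t, -, ht⟩ := (Nat.dvd_prime_pow hp.out).1 h1
    exact ⟨t, ht⟩
  have hcen : (scalars (Fin n) F).subgroupOf P = Subgroup.center P := by
    apply le_antisymm
    · intro x hx
      exact H920.mem_center_of_mem_scalars hc.absIrred hx
    · intro x hx
      exact H920.mem_scalars_of_mem_center hc.absIrred hx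
  obtain ⟨m, c, hUC, hnc⟩ := uc_of_core hF hn hP hc htr ha
  have hne : Nontrivial (Fin n → F) := by
    have : Nonempty (Fin n) := ⟨⟨0, by omega⟩⟩
    infer_instance
  obtain ⟨L, iL, iLf, hL, hout⟩ := hUC.main
    (Cfsg.Agent.OddHalf.Known.isLieTypeChar_congr (QuotientGroup.quotientMulEquivOfEq hcen) hlie)
  have hLF : Fintype.card F = Fintype.card L := by rw [hF, hL, ha]
  have hcard : Nat.card (P ⧸ Subgroup.center P) = Nat.card (PSU n F q) := by
    rw [Nat.card_congr (LieClassical.FieldTransfer.psuCongr n q (FiniteField.ringEquivOfCardEq hLF)).toEquiv, ha]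
    rcases hout with ⟨h1, ⟨e⟩⟩ | ⟨h1, ⟨e⟩⟩
    · have h2 : n = 2 * m := by omega
      exact (Nat.card_congr e.toEquiv).trans (congrArg (fun k => Nat.card (PSU k L (p ^ a))) h2.symm)
    · have h2 : n = 2 * m + 1 := by omega
      exact (Nat.card_congr e.toEquiv).trans (congrArg (fun k => Nat.card (PSU k L (p ^ a))) h2.symm)
  have hP' : P ≤ (suHom n F q).range := by rwa [range_suHom]
  let e := MonoidHom.ofInjective (suHom_injective (F := F) (n := n) (q := q))
  let g : P →* Cfsg.SU n F q := e.symm.toMonoidHom.comp (Subgroup.inclusion hP')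
  have hg : ∀ x : P, suHom n F q (g x) = x := by
    intro x
    have h1 : e (g x) = Subgroup.inclusion hP' x := e.apply_symm_apply _
    exact congrArg Subtype.val h1
  let f : P →* Cfsg.PSU n F q := (QuotientGroup.mk' (Subgroup.center (Cfsg.SU n F q))).comp g
  have hker : f.ker ≤ Subgroup.center P := by
    intro x hx
    have h1 : g x ∈ Subgroup.center (Cfsg.SU n F q) := (QuotientGroup.eq_one_iff _).1 hx
    rw [Subgroup.mem_center_iff] at h1 ⊢
    intro y
    apply Subtype.ext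
    have h2 := congrArg (suHom n F q) (h1 (g y))
    rw [map_mul, map_mul, hg, hg] at h2
    exact h2
  have hle : Nat.card (PSU n F q) ≤ Nat.card f.range := by
    rw [← hcard, ← Subgroup.index_ker]
    exact Subgroup.index_antitone hker
  have hr : f.range = ⊤ := Subgroup.eq_top_of_le_card _ hle
  have hsup : g.range ⊔ Subgroup.center (Cfsg.SU n F q) = ⊤ := by
    rw [eq_top_iff]
    intro s _
    obtain ⟨x, hx⟩ : ((s : Cfsg.SU n F q) : Cfsg.PSU n F q) ∈ f.range := by rw [hr]; trivial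
    have h1 : (g x)⁻¹ * s ∈ Subgroup.center (Cfsg.SU n F q) := QuotientGroup.eq.1 hx
    have h2 : s = g x * ((g x)⁻¹ * s) := by group
    rw [h2]
    exact Subgroup.mul_mem_sup ⟨x, rfl⟩ h1
  have hperf : commutator (Cfsg.SU n F q) = ⊤ := by
    have h1 := SUg_perfect hF (show 3 ≤ n by omega) (by omega)
    rw [← map_suHom_top, ← Subgroup.map_commutator] at h1
    exact Subgroup.map_injective suHom_injective h1
  have htop := eq_top_of_sup_center hperf le_rfl hsup
  have hPe : SUg n F q ≤ P := by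
    intro y hy
    obtain ⟨A, rfl⟩ := exists_suHom hy
    obtain ⟨x, rfl⟩ : A ∈ g.range := by rw [htop]; trivial
    rw [hg]
    exact x.2
  exact hK.not_ge (hPe.trans hc.le)

end

end Cfsg.Agent.H985.UT
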