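import Cfsg.Agent.H985.UT.ElimB
import Cfsg.Agent.H50.HerFam

/-!
# Groups transitive on the isotropic points in the defining characteristic: the core (helper985, S2196 part B3)

* `UC p ρ β a m c` : the setting (`ρ` absolutely simple over `F_{q²}`, `q = p ^ a`, form `β`, the isotropic vectors are fixed by
  Sylow `p`-subgroups, their number is `(q^(2m) - 1) (q^c + 1)`);
* `UC.ls` : the labels; `UC.core`, `UC.corePan` : existence for a group of type `M`;
* `UC.one` : rank one is impossible when two-point stabilisers are commutative.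
-/

set_option autoImplicit false
set_option linter.unusedSectionVars false
set_option linter.style.haveILetI false

namespace Cfsg.Agent.H985.UT

open Cfsg.Agent.Tits.Core Cfsg.Agent.Tits.Core.Bldg Cfsg.Agent.Tits.Exchange Cfsg.Agent.Tits
open Cfsg.Agent.FixBN Cfsg.Agent.FixBN.Cox Cfsg.Agent.Omega.CR Cfsg.Agent.Omega.CR.Bl Cfsg.Agent.H905.DC
open Cfsg.Agent.H50.Her
open Cfsg.Agent.ChevalleyStructure.CoxeterGeom Cfsg.Agent.Tits.Roots

universe u v w x

variable {p : ℕ} {Y : Type u} [Group Y] {k : Type v} {V : Type w} [Field k] [AddCommGroup V] [Module k V]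

/-- the setting -/
structure UC (p : ℕ) (ρ : Y →* Module.End k V) (β : V → Module.Dual k V) (a m c : ℕ) : Prop where
  irr : ∀ L : Submodule k V, Ivt ρ ⊤ L → L = ⊥ ∨ L = ⊤
  abs : ∀ f : Module.End k V, (∀ g v, f (ρ g v) = ρ g (f v)) → ∃ c : k, ∀ v, f v = c • v
  inj : Function.Injective ρ
  frm : Frm ρ β
  cov : ∀ v : V, v ≠ 0 → β v v = 0 → ∃ Q : Subgroup Y, IsPGroup p Q ∧
    (∀ Q' : Subgroup Y, IsPGroup p Q' → Nat.card Q' ≤ Nat.card Q) ∧ ∀ g ∈ Q, ρ g v = v
  a_pos : 0 < a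
  card_k : Nat.card k = p ^ (2 * a)
  three : 3 ≤ m
  odd : Odd c
  lo : 2 * m ≤ c + 1
  hi : c ≤ 2 * m + 1
  dim : Module.finrank k V ≤ 2 * m + 1
  cnt : Nat.card {v : V // v ≠ 0 ∧ β v v = 0} = ((p ^ (2 * a)) ^ m - 1) * (p ^ (a * c) + 1)
  simple : IsSimpleGroup (Y ⧸ Subgroup.center Y)
  cop : (Nat.card (Subgroup.center Y)).Coprime p

section

variable {ρ : Y →* Module.End k V} {β : V → Module.Dual k V} {a m c : ℕ}
variable [hp : Fact p.Prime] [CharP k p] [Finite Y] [Finite k] [Finite V] [Nontrivial V]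

section bldg

variable {I : Type*} {M : CoxeterMatrix I} {W : Type*} [Group W] {cs : CoxeterSystem M W} [F : OppRes.Cox cs]
  {C : Type*} {Δ : Bldg cs C} [MulAction Y C] (S : Sys Δ Y p) [Fintype C]

theorem UC.hcov (h : UC p ρ β a m c) (v : V) (hv : v ≠ 0) (hi : β v v = 0) : ∃ x, v ∈ Vx S ρ x := by
  obtain ⟨Q, hQ, hmax, hfix⟩ := h.cov v hv hi
  obtain ⟨x, hx⟩ := S.exists_fix Q hQ
  refine ⟨x, ?_⟩
  have h1 : Q ≤ S.U x := S.max x Q hQ hx
  have h2 : Q = S.U x := Subgroup.eq_of_le_of_card_ge h1 (hmax _ (S.isP x))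
  rw [mem_Vx]
  intro u hu
  rw [← h2] at hu
  exact hfix u hu

theorem UC.J_ne (h : UC p ρ β a m c) [Nonempty I] (hth : Δ.Thick) (x : C) : Jset S ρ ≠ Set.univ := by
  have hfin : FiniteDimensional k V := Module.Finite.of_finite
  intro hJ
  have hirr := h.irr
  obtain ⟨hN, hs⟩ := exists_stb_Vx (S := S) hth hirr x
  have h1 := hN.iSup_opp hth hs hirr x
  have hall : ∀ z, Vx S ρ z = Vx S ρ x := by
    obtain ⟨c, hc1, hc⟩ := exists_apt (Δ := Δ) x
    intro z
    have hW : Δ.δ x z = Δ.δ (c 1) (c (Δ.δ x z)) := by rw [hc, inv_one, one_mul]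
    obtain ⟨g, hg1, hg2⟩ := exists_smul_pair (S := S) hth hW
    have h2 : Vx S ρ (c 1) = Vx S ρ (c (Δ.δ x z)) := by
      rw [Vx_eq_iff (S := S) hth hirr hc, hJ]
      rw [show WJ cs (Set.univ : Set I) = ⊤ from OppRes.WJ_univ]
      trivial
    rw [← hg1, ← hg2, Vx_smul, Vx_smul] at h2
    have h3 : Function.Injective (Submodule.map (ρ g)) :=
      Submodule.map_injective_of_injective (rhoEquiv ρ g).injective
    exact (h3 h2).symm
  have h2 : Vx S ρ x = ⊤ := by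
    rw [eq_top_iff, ← h1]
    exact iSup_le fun z => (hall z).le
  obtain ⟨i⟩ := (inferInstance : Nonempty I)
  obtain ⟨y, z, hne, hy, hz⟩ := hth x i
  obtain ⟨u, hu, e⟩ := S.exists_move (x := x) (z := y) (z' := z) (hy.trans hz.symm)
  apply hne
  rw [← e]
  have h4 : u = 1 := by
    apply h.inj
    rw [map_one]
    refine LinearMap.ext fun v => ?_
    have h3 : v ∈ Vx S ρ x := by rw [h2]; trivial
    exact h3 u hu
  rw [h4, one_smul]

/-- **the labels** -/
theorem UC.ls (h : UC p ρ β a m c) [Finite W] [Nonempty I] (hth : Δ.Thick) (x : C) :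
    ∃ (n : W → ℕ) (e : I → ℕ), Jset S ρ ≠ Set.univ ∧
      LS cs (Jset S ρ) n e a m c (Module.finrank k (Vx S ρ x)) ∧
      ∀ (x : C) (i : I), Nat.card {z : C // Δ.δ x z = cs.simple i} = p ^ e i := by
  obtain ⟨n, e, h1, h2, h3⟩ := exists_len S hth x
  have hJ := h.J_ne S hth x
  have h4 := labels (S := S) hth h.irr h.frm hJ (h.hcov S) h.a_pos h.card_k h.odd h.dim h.cnt x (fun w => h1 x w)
  exact ⟨n, e, hJ, ⟨h4, h2, h.a_pos, h3, h.three, h.odd, h.lo, h.hi⟩, fun x i => by rw [h1, h2.simple]⟩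

end bldg

/-- a group of type `M` -/
theorem UC.core (h : UC p ρ β a m c) {I : Type*} [Finite I] [Nonempty I] {M : CoxeterMatrix I} (hS : HasSysT p M Y) :
    ∃ (W : Type u) (_ : Group W) (_ : Finite W) (cs : CoxeterSystem M W) (J : Set I) (n : W → ℕ) (e : I → ℕ) (d : ℕ),
      J ≠ Set.univ ∧ LS cs J n e a m c d := by
  obtain ⟨W, C, i1, cs, i2, i3, Δ, i4, hth, ⟨S⟩⟩ := hS
  obtain ⟨Q⟩ : Nonempty (Sylow p Y) := inferInstance
  obtain ⟨x, -⟩ := S.exists_fix Q Q.isPGroup'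
  obtain ⟨n, e, h1, h2, -⟩ := h.ls S hth x
  exact ⟨W, i1, i2, cs, _, n, e, _, h1, h2⟩

/-- a group of type `M` with panels -/
theorem UC.corePan (h : UC p ρ β a m c) {I : Type*} [Finite I] [Nonempty I] {M : CoxeterMatrix I} {q : I → ℕ}
    (hB : HasBld p M q Y) :
    ∃ (W : Type u) (_ : Group W) (_ : Finite W) (cs : CoxeterSystem M W) (J : Set I) (n : W → ℕ) (e : I → ℕ) (d : ℕ),
      J ≠ Set.univ ∧ LS cs J n e a m c d ∧ ∀ i, q i = p ^ e i := by
  obtain ⟨W, C, i1, cs, i2, i3, Δ, i4, hth, ⟨S⟩, hq, -⟩ := hB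
  obtain ⟨Q⟩ : Nonempty (Sylow p Y) := inferInstance
  obtain ⟨x, -⟩ := S.exists_fix Q Q.isPGroup'
  obtain ⟨n, e, h1, h2, h3⟩ := h.ls S hth x
  exact ⟨W, i1, i2, cs, _, n, e, _, h1, h2, fun i => by rw [← hq x i, h3]⟩

/-- a building of rank one with commutative stabilisers of two points -/
def HasOne.{r, s} (p : ℕ) (Y : Type r) [Group Y] : Prop :=
  ∃ (M : CoxeterMatrix (Fin 1)) (W C : Type s) (_ : Group W) (cs : CoxeterSystem M W) (_ : Finite W) (_ : Fintype C)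
    (Δ : Bldg cs C) (_ : MulAction Y C), Δ.Thick ∧ Nonempty (Sys Δ Y p) ∧
      ∀ x y : C, Δ.Opp x y → ∀ g h : Y, g • x = x → g • y = y → h • x = x → h • y = y → g * h = h * g

/-- **rank one** -/
theorem UC.one (h : UC p ρ β a m c) (hS : HasOne.{u, x} p Y) : False := by
  obtain ⟨M, W, C, i1, cs, i2, i3, Δ, i4, hth, ⟨S⟩, hT⟩ := hS
  have hfin : FiniteDimensional k V := Module.Finite.of_finite
  obtain ⟨Q⟩ : Nonempty (Sylow p Y) := inferInstance
  obtain ⟨x, -⟩ := S.exists_fix Q Q.isPGroup'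
  obtain ⟨n, e, h1, h2, h3⟩ := h.ls S hth x
  obtain ⟨m', hm1, hm2⟩ := h2.lab.half
  have hidx : (WJ cs (Jset S ρ)).index ≤ 2 := by
    have hle : (WJ cs (Jset S ρ)).index ≤ Nat.card W :=
      Nat.le_of_dvd Nat.card_pos (Subgroup.index_dvd_card _)
    refine hle.trans ?_
    have h4 : (Set.univ : Set W) ⊆ {1, cs.simple 0} := by
      intro w _
      rcases eq_one_or_simple cs w with rfl | rfl
      · simp
      · simp
    calc Nat.card W = (Set.univ : Set W).ncard := (Set.ncard_univ W).symm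
      _ ≤ ({1, cs.simple 0} : Set W).ncard := Set.ncard_le_ncard h4 (Set.toFinite _)
      _ ≤ 2 := Set.ncard_insert_le _ _ |>.trans (by rw [Set.ncard_singleton])
  obtain ⟨y, hy⟩ := Opp.exists_opp Δ x
  obtain ⟨w, hw, hw0, hall⟩ := Cfsg.Agent.H428.CardEnd.line_fin S ρ hth h.irr h.abs (x := x) (y := y)
    (fun g h hg1 hg2 hh1 hh2 v _ => by
      rw [← rho_mul, ← rho_mul, hT x y hy g h hg1 hg2 hh1 hh2])
  have hd : Module.finrank k (Vx S ρ x) ≤ 1 :=
    finrank_le_one (⟨w, hw⟩ : Vx S ρ x) (fun v => by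
      obtain ⟨c, hc⟩ := hall v.1 v.2
      exact ⟨c, Subtype.ext hc.symm⟩)
  have hm3 := h.three
  have : m' ≤ 1 := by omega
  have : m' * Module.finrank k (Vx S ρ x) ≤ 1 * 1 := Nat.mul_le_mul this hd
  omega

end

end Cfsg.Agent.H985.UT
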