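import Cfsg.Agent.H985.UT.Lab
import Cfsg.Agent.H985.UT.Ad
import Cfsg.Agent.H858.HerUniq
import Cfsg.Agent.H50.HerConj

/-!
# The labels of a group transitive on the isotropic points: which types and parameters (helper985, S2196 part B3)

* `LS` : the setting; `LS.not_dvd`, `LS.ge`, `LS.node`, `LS.far`, `LS.exists_four`;
* `LS.all_eq` : all `e i` equal; `LS.two` : rank two, `M 0 1 ≥ 6`; `LS.f4`;
* `LS.b` : type `B`.
-/

set_option autoImplicit false
set_option linter.unusedSectionVars false
set_option linter.style.haveILetI false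

namespace Cfsg.Agent.H985.UT

open Cfsg.Agent.Tits.Core Cfsg.Agent.Tits.Core.Bldg Cfsg.Agent.Tits.Exchange Cfsg.Agent.Tits
open Cfsg.Agent.FixBN Cfsg.Agent.FixBN.Cox Cfsg.Agent.Omega.CR Cfsg.Agent.Omega.CR.Bl Cfsg.Agent.H905.DC
open Cfsg.Agent.H50.Her

section General

variable {I : Type*} {M : CoxeterMatrix I} {W : Type*} [Group W] {cs : CoxeterSystem M W} [F : OppRes.Cox cs]
  {J : Set I} {n : W → ℕ} {e : I → ℕ} {a m c d : ℕ}

local prefix:100 "ℓ" => cs.length

/-- the setting -/
structure LS (cs : CoxeterSystem M W) (J : Set I) (n : W → ℕ) (e : I → ℕ) (a m c d : ℕ) : Prop where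
  lab : LabU cs J n a m c d
  ad : Ad cs n e
  a_pos : 0 < a
  e_pos : ∀ i, 0 < e i
  three : 3 ≤ m
  odd : Odd c
  lo : 2 * m ≤ c + 1
  hi : c ≤ 2 * m + 1

namespace LS

theorem eq (h : LS cs J n e a m c d) {w w' : W} (hw : IsMinR cs J w) (hw' : IsMinR cs J w') (he : n w = n w') :
    w = w' :=
  (h.lab.inj w w' hw hw' 0 h.lab.d_pos 0 h.lab.d_pos (by rw [he])).1

theorem mem0 (h : LS cs J n e a m c d) {w : W} (hw : IsMinR cs J w) :
    (∃ x < m, n w = 2 * a * x) ∨ a * c ≤ n w := by
  have h1 := h.lab.mem w hw 0 h.lab.d_pos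
  rw [mul_zero, add_zero] at h1
  obtain ⟨i, hi, h2 | h2⟩ := mem_LamSet.1 h1
  · exact Or.inl ⟨i, hi, h2⟩
  · right; rw [h2]; exact Nat.le_add_right _ _

theorem isMinR_one (J : Set I) : IsMinR cs J 1 := by
  intro u _
  rw [one_mul, cs.length_one, zero_add]

theorem two_c (h : LS cs J n e a m c d) (h2 : 2 * d ≤ m) : 2 * a * d ≤ a * c := by
  have h1 : 2 * d ≤ c := by have := h.lo; have := h.three; omega
  calc 2 * a * d = a * (2 * d) := by ring
    _ ≤ a * c := Nat.mul_le_mul_left a h1

theorem not_dvd (h : LS cs J n e a m c d) (he : ∀ i, 2 * a ∣ e i) : False := by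
  obtain ⟨w, hw, j, hj, h1⟩ := h.lab.ex (a * c) (mem_LamSet.2 ⟨0, by have := h.three; omega, Or.inr (by rw [mul_zero, add_zero])⟩)
  obtain ⟨y, hy⟩ := h.ad.dvd he w
  obtain ⟨t, ht⟩ := h.odd
  have h2 : a * (2 * (y + j)) = a * c := by rw [← h1, hy]; ring
  have h3 := Nat.eq_of_mul_eq_mul_left h.a_pos h2
  omega

/-- the labels are at least `2 a d` -/
theorem ge (h : LS cs J n e a m c d) (h2 : 2 * d ≤ m) {w : W} (hw : IsMinR cs J w) (h1 : w ≠ 1) :
    2 * a * d ≤ n w := by
  rcases h.mem0 hw with ⟨x, hx, hn⟩ | hn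
  · by_contra hcon
    have hxd : x < d := by
      by_contra hd
      apply hcon
      rw [hn]
      exact Nat.mul_le_mul_left _ (by omega)
    exact h1 (h.lab.inj w 1 hw (isMinR_one J) 0 h.lab.d_pos x hxd (by rw [hn, h.ad.one, mul_zero, add_zero, zero_add])).1
  · exact (h.two_c h2).trans hn

theorem ge_simple (h : LS cs J n e a m c d) (h2 : 2 * d ≤ m) {i : I} (hi : i ∉ J) : 2 * a * d ≤ e i := by
  have h1 := h.ge h2 (isMinR_simple (cs := cs) hi) (Trace.simple_ne_one i)
  rwa [h.ad.simple] at h1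

/-- the node with the label `2 a d` -/
theorem node (h : LS cs J n e a m c d) (h2 : 2 * d ≤ m) : ∃ i, i ∉ J ∧ e i = 2 * a * d := by
  have hd := h.lab.d_pos
  have ha := h.a_pos
  obtain ⟨w, hw, j, hj, h1⟩ := h.lab.ex (2 * a * d) (mem_LamSet.2 ⟨d, by omega, Or.inl rfl⟩)
  have hw1 : w ≠ 1 := by
    rintro rfl
    rw [h.ad.one, zero_add] at h1
    have := Nat.eq_of_mul_eq_mul_left (by omega) h1
    omega
  have h3 := h.ge h2 hw hw1
  obtain ⟨i, hi⟩ := cs.exists_rightDescent_of_ne_one hw1
  have hi' : ℓ (w * cs.simple i) < ℓ w := hi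
  have hiJ : i ∉ J := by
    intro hiJ
    have := (isMinR_iff (cs := cs)).1 hw i hiJ
    omega
  have h4 := h.ge_simple h2 hiJ
  have h5 : n w = n (w * cs.simple i) + e i := by
    have h6 := h.ad.mul (w := w * cs.simple i) (i := i) (by
      rw [cs.simple_mul_simple_cancel_right]
      rcases cs.length_mul_simple w i with h' | h' <;> omega)
    rwa [cs.simple_mul_simple_cancel_right] at h6
  exact ⟨i, hiJ, by omega⟩

/-- the labels of the elements other than `1`, `s_i` -/
theorem far (h : LS cs J n e a m c d) (h2 : 2 * d ≤ m) {i : I} (hi : i ∉ J) (hei : e i = 2 * a * d) {w : W}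
    (hw : IsMinR cs J w) (h1 : w ≠ 1) (hwi : w ≠ cs.simple i) : 4 * a * d ≤ n w ∨ a * c ≤ n w := by
  have h3 := h.ge h2 hw h1
  rcases h.mem0 hw with ⟨x, hx, hn⟩ | hn
  · left
    by_contra hcon
    have ha := h.a_pos
    have hdx : d ≤ x := by
      rw [hn] at h3
      exact Nat.le_of_mul_le_mul_left h3 (by omega)
    have hxd : x < 2 * d := by
      by_contra hd
      apply hcon
      rw [hn]
      calc 4 * a * d = 2 * a * (2 * d) := by ring
        _ ≤ 2 * a * x := Nat.mul_le_mul_left _ (by omega)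
    refine hwi (h.lab.inj w (cs.simple i) hw (isMinR_simple (cs := cs) hi) 0 h.lab.d_pos (x - d) (by omega) ?_).1
    obtain ⟨y, rfl⟩ : ∃ y, x = d + y := ⟨x - d, by omega⟩
    rw [hn, h.ad.simple, hei, Nat.add_sub_cancel_left]
    ring
  · exact Or.inr hn

/-- the label `4 a d` -/
theorem exists_four (h : LS cs J n e a m c d) (h3 : 3 * d ≤ m) {i : I} (hi : i ∉ J) (hei : e i = 2 * a * d) :
    ∃ w, IsMinR cs J w ∧ n w = 4 * a * d := by
  have hd := h.lab.d_pos
  have ha := h.a_pos
  have h2 : 2 * d ≤ m := by omega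
  obtain ⟨w, hw, j, hj, h1⟩ := h.lab.ex (4 * a * d) (mem_LamSet.2 ⟨2 * d, by omega, Or.inl (by ring)⟩)
  refine ⟨w, hw, ?_⟩
  have hj' : 2 * a * j < 2 * a * d := Nat.mul_lt_mul_of_pos_left hj (by omega)
  have hw1 : w ≠ 1 := by
    rintro rfl
    rw [h.ad.one, zero_add] at h1
    have e1 : 4 * a * d = 2 * a * (2 * d) := by ring
    rw [e1] at h1
    have := Nat.eq_of_mul_eq_mul_left (by omega) h1
    omega
  have hwi : w ≠ cs.simple i := by
    rintro rfl
    rw [h.ad.simple, hei] at h1
    have e1 : 4 * a * d = 2 * a * d + 2 * a * d := by ring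
    omega
  rcases h.far h2 hi hei hw hw1 hwi with h4 | h4
  · omega
  · have h5 : 4 * a * d ≤ a * c := by
      have h6 : 4 * d ≤ c := by have := h.lo; omega
      calc 4 * a * d = a * (4 * d) := by ring
        _ ≤ a * c := Nat.mul_le_mul_left a h6
    omega

/-- **all the parameters equal** -/
theorem all_eq (h : LS cs J n e a m c d) (h2 : 2 * d ≤ m) (he : ∀ i j, e i = e j) : False := by
  obtain ⟨i, -, hi⟩ := h.node h2
  exact h.not_dvd fun j => by rw [he j i, hi]; exact Dvd.intro _ rfl

/-- the number of nodes `≥ 2` implies `2 d ≤ m` -/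
theorem le_of_index (h : LS cs J n e a m c d) {k : ℕ} (hk : 2 * k ≤ (WJ cs J).index + 1) : k * d ≤ m := by
  obtain ⟨m', h1, h2⟩ := h.lab.half
  rw [← h2]
  exact Nat.mul_le_mul_right d (by omega)

end LS

end General

section Two

variable {W : Type*} [Group W] [Finite W] {M : CoxeterMatrix (Fin 2)} {cs : CoxeterSystem M W} [F : OppRes.Cox cs]
  {J : Set (Fin 2)} {n : W → ℕ} {e : Fin 2 → ℕ} {a m c d : ℕ}

theorem not_comm (cs : CoxeterSystem M W) (hM : 3 ≤ M 0 1) {i : Fin 2} :
    cs.simple i * cs.simple (1 - i) ≠ cs.simple (1 - i) * cs.simple i := by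
  have key : cs.simple 0 * cs.simple 1 ≠ cs.simple 1 * cs.simple 0 := by
    intro h
    have h1 := Cfsg.Agent.Tits.Generic.orderOf_eq cs 0 1
    have h2 : (cs.simple 0 * cs.simple 1) ^ 2 = 1 := by
      rw [pow_two]
      nth_rw 1 [h]
      rw [mul_assoc, ← mul_assoc (cs.simple 0), cs.simple_mul_simple_self, one_mul, cs.simple_mul_simple_self]
    have h3 := Nat.le_of_dvd (by norm_num) (orderOf_dvd_of_pow_eq_one h2)
    omega
  fin_cases i
  · exact key
  · exact key.symm

theorem length_two (cs : CoxeterSystem M W) (hM : 3 ≤ M 0 1) (i : Fin 2) :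
    cs.length (cs.simple i * cs.simple (1 - i)) = cs.length (cs.simple i) + 1 := by
  have h1 := not_comm cs hM (i := i)
  rcases cs.length_mul_simple (cs.simple i) (1 - i) with h | h
  · exact h
  · exfalso
    rw [cs.length_simple] at h
    have h2 : cs.length (cs.simple i * cs.simple (1 - i)) = 0 := by omega
    rw [cs.length_eq_zero_iff] at h2
    apply h1
    have h3 : cs.simple i = cs.simple (1 - i) := by
      rw [← cs.inv_simple (1 - i)]
      exact eq_inv_of_mul_eq_one_left h2
    rw [← h3]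

/-- the index of a proper parabolic subgroup -/
theorem le_index_two (cs : CoxeterSystem M W) {J : Set (Fin 2)} (hJ : J ≠ Set.univ) :
    M 0 1 ≤ (WJ cs J).index := by
  classical
  obtain ⟨i, hi⟩ : ∃ i, i ∉ J := by
    by_contra hcon
    push Not at hcon
    exact hJ (Set.eq_univ_of_forall hcon)
  have hJ1 : ∀ w ∈ WJ cs J, w = 1 ∨ w = cs.simple (1 - i) := by
    intro w hw
    unfold WJ at hw
    induction hw using Subgroup.closure_induction with
    | mem x hx =>
      obtain ⟨j, hj, rfl⟩ := hx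
      right
      have : j ≠ i := fun e => hi (e ▸ hj)
      congr 1
      omega
    | one => exact Or.inl rfl
    | mul x y _ _ hx hy =>
      rcases hx with rfl | rfl <;> rcases hy with rfl | rfl
      · left; rw [mul_one]
      · right; rw [one_mul]
      · right; rw [mul_one]
      · left; exact cs.simple_mul_simple_self _
    | inv x _ hx =>
      rcases hx with rfl | rfl
      · left; exact inv_one
      · right; exact cs.inv_simple _
  have ho := Cfsg.Agent.Tits.Generic.orderOf_eq cs 0 1
  have hfin : Finite (W ⧸ WJ cs J) := Quotient.finite _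
  rw [Subgroup.index, ← ho, ← Nat.card_zpowers]
  refine Nat.card_le_card_of_injective
    (fun z : Subgroup.zpowers (cs.simple 0 * cs.simple 1) => (QuotientGroup.mk z.1 : W ⧸ WJ cs J)) ?_
  rintro ⟨x, hx⟩ ⟨y, hy⟩ hxy
  have h1 : x⁻¹ * y ∈ WJ cs J := QuotientGroup.eq.1 hxy
  have h2 : x⁻¹ * y ∈ Subgroup.zpowers (cs.simple 0 * cs.simple 1) := mul_mem (inv_mem hx) hy
  rcases hJ1 _ h1 with h3 | h3
  · exact Subtype.ext (inv_mul_eq_one.1 h3)
  · exfalso
    obtain ⟨k, hk⟩ := h2
    have h4 : cs.lengthParity (x⁻¹ * y) = 1 := by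
      change (cs.simple 0 * cs.simple 1) ^ k = x⁻¹ * y at hk
      rw [← hk, map_zpow, map_mul, cs.lengthParity_simple, cs.lengthParity_simple]
      have h5 : (Multiplicative.ofAdd (1 : ZMod 2)) * Multiplicative.ofAdd (1 : ZMod 2) = 1 := by decide
      rw [h5, one_zpow]
    rw [h3, cs.lengthParity_simple] at h4
    exact absurd h4 (by decide)

namespace LS

/-- **rank two, `M 0 1 ≥ 6`** -/
theorem two (h : LS cs J n e a m c d) (hJ : J ≠ Set.univ) (hM : 6 ≤ M 0 1) : False := by
  have h3 : 3 * d ≤ m := h.le_of_index (by have := le_index_two cs hJ; omega)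
  have hd := h.lab.d_pos
  have ha := h.a_pos
  have hd1 := h.lab.d_pos
  have h2 : 2 * d ≤ m := by omega
  obtain ⟨i, hi, hei⟩ := h.node h2
  by_cases hj : 1 - i ∈ J
  · obtain ⟨w, hw, hnw⟩ := h.exists_four h3 hi hei
    have had : 0 < a * d := Nat.mul_pos ha hd
    have e4 : 4 * a * d = 4 * (a * d) := by ring
    have e2 : 2 * a * d = 2 * (a * d) := by ring
    rw [e4] at hnw
    rw [e2] at hei
    -- last letters
    have hdesc : ∀ w : W, w ≠ 1 → ∃ k, cs.length (w * cs.simple k) + 1 = cs.length w ∧ n w = n (w * cs.simple k) + e k := by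
      intro w hw
      obtain ⟨k, hk⟩ := cs.exists_rightDescent_of_ne_one hw
      have hk' : cs.length (w * cs.simple k) < cs.length w := hk
      have h1 : cs.length (w * cs.simple k) + 1 = cs.length w := by
        rcases cs.length_mul_simple w k with h' | h' <;> omega
      refine ⟨k, h1, ?_⟩
      have h6 := h.ad.mul (w := w * cs.simple k) (i := k) (by rw [cs.simple_mul_simple_cancel_right]; omega)
      rwa [cs.simple_mul_simple_cancel_right] at h6
    have hw1 : w ≠ 1 := by
      rintro rfl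
      rw [h.ad.one] at hnw
      omega
    obtain ⟨k, hk1, hk2⟩ := hdesc w hw1
    have hki : k = i := by
      by_contra hne
      have hkJ : k ∈ J := by
        have : k = 1 - i := by omega
        rw [this]; exact hj
      have := (isMinR_iff (cs := cs)).1 hw k hkJ
      omega
    subst hki
    have hw2 : w * cs.simple k ≠ 1 := by
      intro h5
      rw [h5, h.ad.one] at hk2
      omega
    obtain ⟨l, hl1, hl2⟩ := hdesc _ hw2
    have hlk : l ≠ k := by
      rintro rfl
      rw [cs.simple_mul_simple_cancel_right] at hl1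
      omega
    by_cases hw3 : w * cs.simple k * cs.simple l = 1
    · rw [hw3, h.ad.one] at hl2
      apply h.not_dvd
      intro j
      have hcase : j = k ∨ j = l := by omega
      rcases hcase with rfl | rfl
      · rw [hei]; exact ⟨d, by ring⟩
      · exact ⟨d, by rw [show 2 * a * d = 2 * (a * d) by ring]; omega⟩
    · obtain ⟨r, hr1, hr2⟩ := hdesc _ hw3
      have hrl : r ≠ l := by
        rintro rfl
        rw [cs.simple_mul_simple_cancel_right] at hr1
        omega
      have hrk : r = k := by omega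
      subst hrk
      have := h.e_pos l
      omega
  · -- `J = ∅`
    have hJ0 : J = ∅ := by
      ext j
      constructor
      · intro hjJ
        have hcase : j = i ∨ j = 1 - i := by omega
        rcases hcase with rfl | rfl
        · exact absurd hjJ hi
        · exact absurd hjJ hj
      · intro h; exact absurd h (Set.notMem_empty j)
    have hmin : ∀ w : W, IsMinR cs J w := by
      intro w
      rw [isMinR_iff]
      intro k hk
      rw [hJ0] at hk
      exact absurd hk (Set.notMem_empty k)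
    apply not_comm cs (by omega) (i := i)
    apply h.eq (hmin _) (hmin _)
    have l1 := length_two cs (by omega) i
    have l2 := length_two cs (by omega) (1 - i)
    have e1 : (1 : Fin 2) - (1 - i) = i := by omega
    rw [e1] at l2
    rw [h.ad.mul l1, h.ad.mul l2, h.ad.simple, h.ad.simple, add_comm]

end LS

end Two

section Cartan

variable {I W : Type*} [Fintype I] [DecidableEq I] [Group W] [Finite W] {M : CoxeterMatrix I}
  {cs : CoxeterSystem M W} {J : Set I} {n : W → ℕ} {e : I → ℕ} {a m c d : ℕ}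

open Cfsg.Agent.ChevalleyStructure.CoxeterGeom Cfsg.Agent.Tits.Roots Cfsg.Agent.H219.HerUniq

/-- two words with the same label -/
theorem LS.dup (h : LS cs J n e a m c d) {A : I → I → ℤ} (hA : IsCartan M A) {i : I} (hi : i ∉ J) (ω ω' : List I)
    (h1 : Legal A (Pi.single i 1) ω) (h2 : Legal A (Pi.single i 1) ω') (hs : (ω.map e).sum = (ω'.map e).sum)
    (hne : cf A i ω ≠ cf A i ω') : False := by
  obtain ⟨h3, h4⟩ := h.ad.lab_legal hA hi h1
  obtain ⟨h5, h6⟩ := h.ad.lab_legal hA hi h2
  have h7 := h.eq h3 h5 (by rw [h4, h6, hs])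
  apply hne
  rw [← co_wordProd cs hA, ← co_wordProd cs hA, inv_injective h7]

theorem LS.f4 {W : Type*} [Group W] [Finite W] {cs : CoxeterSystem CoxeterMatrix.F₄ W} {J : Set (Fin 4)} {n : W → ℕ}
    {e : Fin 4 → ℕ} (h : LS cs J n e a m c d) (hJ : J ≠ Set.univ) : False := by
  obtain ⟨i, hi⟩ : ∃ i, i ∉ J := by
    by_contra hcon
    push Not at hcon
    exact hJ (Set.eq_univ_of_forall hcon)
  have h01 : e 0 = e 1 := h.ad.eq_of_three isCartan_cF4 (by decide +kernel)
  have h23 : e 2 = e 3 := h.ad.eq_of_three isCartan_cF4 (by decide +kernel)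
  fin_cases i
  · exact h.dup isCartan_cF4 hi [0, 1, 2, 1, 0, 3, 2] [0, 1, 2, 1, 3, 2, 1] (by decide +kernel) (by decide +kernel)
      (by simp only [List.map_cons, List.map_nil, List.sum_cons, List.sum_nil]; omega) (by decide +kernel)
  · exact h.dup isCartan_cF4 hi [1, 0, 2] [1, 2, 1] (by decide +kernel) (by decide +kernel)
      (by simp only [List.map_cons, List.map_nil, List.sum_cons, List.sum_nil]; omega) (by decide +kernel)
  · exact h.dup isCartan_cF4 hi [2, 1, 2] [2, 1, 3] (by decide +kernel) (by decide +kernel)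
      (by simp only [List.map_cons, List.map_nil, List.sum_cons, List.sum_nil]; omega) (by decide +kernel)
  · exact h.dup isCartan_cF4 hi [3, 2, 1, 0, 2, 1, 2] [3, 2, 1, 0, 2, 1, 3] (by decide +kernel) (by decide +kernel)
      (by simp only [List.map_cons, List.map_nil, List.sum_cons, List.sum_nil]; omega) (by decide +kernel)

end Cartan

end Cfsg.Agent.H985.UT
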