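import Cfsg.Agent.H985.UT.Elim

/-!
# The labels, type `B_l` (helper985, S2196 part B3)

`e = (t₁, …, t₁, t₂)`.
* `LS.b_mid` : the inner nodes are in `J`; `exists_up`, `exists_down` : the words from the node `0`;
* **`LS.b_one_two`** : `(t, …, t, 2 t)` is impossible; **`LS.b_two_one`** : `(2 t, …, 2 t, t)`: `t = a`, `l = m`, `c + 1 = 2 m`;
  **`LS.b_two_three`** : `(2 t, …, 2 t, 3 t)`: `t = a`, `l = m`, `c = 2 m + 1`.
-/

set_option autoImplicit false
set_option linter.unusedSectionVars false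
set_option linter.style.haveILetI false

namespace Cfsg.Agent.H985.UT

open Cfsg.Agent.Tits.Core Cfsg.Agent.Tits.Core.Bldg Cfsg.Agent.Tits.Exchange Cfsg.Agent.Tits
open Cfsg.Agent.FixBN Cfsg.Agent.FixBN.Cox Cfsg.Agent.Omega.CR Cfsg.Agent.Omega.CR.Bl Cfsg.Agent.H905.DC
open Cfsg.Agent.H50.Her
open Cfsg.Agent.ChevalleyStructure.CoxeterGeom Cfsg.Agent.Tits.Roots Cfsg.Agent.H219.HerUniq Cfsg.Agent.H858.HerUniq

variable {l : ℕ} {W : Type*} [Group W] [Finite W] {cs : CoxeterSystem (CoxeterMatrix.B l) W} {J : Set (Fin l)}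
  {n : W → ℕ} {e : Fin l → ℕ} {a m c d : ℕ}

/-- a node with two neighbours of the same parameter -/
theorem LS.b_mid (h : LS cs J n e a m c d) {t : ℕ} (he : ∀ i : Fin l, (i : ℕ) + 1 < l → e i = t) {i : Fin l} (hi : i ∉ J)
    (h1 : 1 ≤ (i : ℕ)) (h2 : (i : ℕ) + 2 ≤ l) : False := by
  have hil := i.2
  have hA := isCartan_AB l
  let x : Fin l := ⟨i - 1, by omega⟩
  let y : Fin l := ⟨i + 1, by omega⟩
  have hxv : (x : ℕ) = i - 1 := rfl
  have hyv : (y : ℕ) = i + 1 := rfl
  have hxi : x ≠ i := fun e => by have := congrArg Fin.val e; omega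
  have hyi : y ≠ i := fun e => by have := congrArg Fin.val e; omega
  have hxy : x ≠ y := fun e => by have := congrArg Fin.val e; omega
  have Aix : AB l i x = -1 := by
    rw [AB_apply, if_neg hxi.symm, if_pos (by omega), if_pos (by omega)]
  have Aiy : AB l i y = -1 := by
    rw [AB_apply, if_neg hyi.symm, if_neg (by omega), if_pos (by omega)]
  have Axx : AB l x x = 2 := hA.diag x
  have Ayy : AB l y y = 2 := hA.diag y
  have Aii : AB l i i = 2 := hA.diag i
  have Axy : AB l x y = 0 := by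
    rw [AB_apply, if_neg hxy, if_neg (by omega), if_neg (by omega)]
  have Ayx : AB l y x = 0 := by
    rw [AB_apply, if_neg hxy.symm, if_neg (by omega), if_neg (by omega)]
  have c0 : ∀ z : Fin l, z ≠ i → fire (AB l) (Pi.single i 1) i z = - AB l i z := by
    intro z hz
    change (Pi.single i 1 : Fin l → ℤ) z - AB l i z * (Pi.single i 1 : Fin l → ℤ) i = _
    rw [Pi.single_eq_same, Pi.single_eq_of_ne hz]; ring
  have c1x : fire (AB l) (Pi.single i 1) i x = 1 := by rw [c0 x hxi, Aix]; norm_num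
  have c1y : fire (AB l) (Pi.single i 1) i y = 1 := by rw [c0 y hyi, Aiy]; norm_num
  have c1i : fire (AB l) (Pi.single i 1) i i = -1 := by
    change (Pi.single i 1 : Fin l → ℤ) i - AB l i i * (Pi.single i 1 : Fin l → ℤ) i = _
    rw [Pi.single_eq_same, Aii]; norm_num
  have hex : e x = t := he x (by omega)
  have hei : e i = t := he i (by omega)
  by_cases h3 : (i : ℕ) + 3 ≤ l
  · have hey : e y = t := he y (by omega)
    refine h.dup hA hi [i, x] [i, y] ⟨by simp, by rw [c1x]; norm_num, trivial⟩ ⟨by simp, by rw [c1y]; norm_num, trivial⟩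
      (by simp only [List.map_cons, List.map_nil, List.sum_cons, List.sum_nil]; omega) ?_
    intro heq
    have h4 := congrFun heq x
    change fire (AB l) (Pi.single i 1) i x - AB l x x * fire (AB l) (Pi.single i 1) i x =
      fire (AB l) (Pi.single i 1) i x - AB l y x * fire (AB l) (Pi.single i 1) i y at h4
    rw [c1x, c1y, Axx, Ayx] at h4
    norm_num at h4
  · have Ayi : AB l y i = -2 := by
      rw [AB_apply, if_neg hyi, if_pos (by omega), if_neg (by omega)]
    have c2i : fire (AB l) (fire (AB l) (Pi.single i 1) i) y i = 1 := by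
      change fire (AB l) (Pi.single i 1) i i - AB l y i * fire (AB l) (Pi.single i 1) i y = _
      rw [c1i, c1y, Ayi]; norm_num
    have c2x : fire (AB l) (fire (AB l) (Pi.single i 1) i) y x = 1 := by
      change fire (AB l) (Pi.single i 1) i x - AB l y x * fire (AB l) (Pi.single i 1) i y = _
      rw [c1x, c1y, Ayx]; norm_num
    refine h.dup hA hi [i, y, x] [i, y, i] ⟨by simp, by rw [c1y]; norm_num, by rw [c2x]; norm_num, trivial⟩
      ⟨by simp, by rw [c1y]; norm_num, by rw [c2i]; norm_num, trivial⟩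
      (by simp only [List.map_cons, List.map_nil, List.sum_cons, List.sum_nil]; omega) ?_
    intro heq
    have h4 := congrFun heq x
    change fire (AB l) (fire (AB l) (Pi.single i 1) i) y x - AB l x x * fire (AB l) (fire (AB l) (Pi.single i 1) i) y x =
      fire (AB l) (fire (AB l) (Pi.single i 1) i) y x - AB l i x * fire (AB l) (fire (AB l) (Pi.single i 1) i) y i at h4
    rw [c2x, c2i, Axx, Aix] at h4
    norm_num at h4

theorem single_eq_pB {i : Fin l} (h0 : (i : ℕ) = 0) : (Pi.single i 1 : Fin l → ℤ) = pB l 0 := by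
  funext m
  rw [Pi.single_apply]
  unfold pB
  simp only [Fin.ext_iff]
  split_ifs <;> first | omega | (exfalso; assumption)

/-- the words from the node `0`, first half -/
theorem exists_up {t : ℕ} (he : ∀ i : Fin l, (i : ℕ) + 1 < l → e i = t) {i : Fin l} (h0 : (i : ℕ) = 0) (k : ℕ) (hk : k < l) :
    ∃ ω : List (Fin l), Legal (AB l) (Pi.single i 1) ω ∧ cf (AB l) i ω = pB l k ∧ (ω.map e).sum = k * t := by
  induction k with
  | zero => exact ⟨[], trivial, single_eq_pB h0, by simp⟩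
  | succ k ih =>
    obtain ⟨ω, h1, h2, h3⟩ := ih (by omega)
    refine ⟨ω ++ [⟨k, by omega⟩], legal_append _ _ _ _ h1 ⟨?_, trivial⟩, ?_, ?_⟩
    · change 0 < cf (AB l) i ω ⟨k, by omega⟩
      rw [h2]
      unfold pB
      simp
    · rw [cf, List.foldl_append]
      change fire (AB l) (cf (AB l) i ω) ⟨k, by omega⟩ = _
      rw [h2, fire_pB_eq ⟨k, by omega⟩ rfl hk]
    · rw [List.map_append, List.sum_append, h3]
      simp only [List.map_cons, List.map_nil, List.sum_cons, List.sum_nil, add_zero]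
      rw [he ⟨k, by omega⟩ (by change k + 1 < l; omega)]
      ring

/-- the words from the node `0`, second half -/
theorem exists_down {t t' : ℕ} (he : ∀ i : Fin l, (i : ℕ) + 1 < l → e i = t) (he' : ∀ i : Fin l, (i : ℕ) + 1 = l → e i = t')
    {i : Fin l} (h0 : (i : ℕ) = 0) (k : ℕ) (hk : k < l) :
    ∃ ω : List (Fin l), Legal (AB l) (Pi.single i 1) ω ∧ cf (AB l) i ω = -pB l (l - 1 - k) ∧
      (ω.map e).sum = (l - 1 + k) * t + t' := by
  induction k with
  | zero =>
    obtain ⟨ω, h1, h2, h3⟩ := exists_up he h0 (l - 1) (by omega)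
    refine ⟨ω ++ [⟨l - 1, by omega⟩], legal_append _ _ _ _ h1 ⟨?_, trivial⟩, ?_, ?_⟩
    · change 0 < cf (AB l) i ω ⟨l - 1, by omega⟩
      rw [h2]
      unfold pB
      simp
    · rw [cf, List.foldl_append]
      change fire (AB l) (cf (AB l) i ω) ⟨l - 1, by omega⟩ = _
      rw [h2, fire_pB_last (k := l - 1) ⟨l - 1, by omega⟩ rfl (by omega)]
      rfl
    · rw [List.map_append, List.sum_append, h3]
      simp only [List.map_cons, List.map_nil, List.sum_cons, List.sum_nil, add_zero]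
      rw [he' ⟨l - 1, by omega⟩ (by change l - 1 + 1 = l; omega)]
  | succ k ih =>
    obtain ⟨ω, h1, h2, h3⟩ := ih (by omega)
    refine ⟨ω ++ [⟨l - 2 - k, by omega⟩], legal_append _ _ _ _ h1 ⟨?_, trivial⟩, ?_, ?_⟩
    · change 0 < cf (AB l) i ω ⟨l - 2 - k, by omega⟩
      rw [h2]
      change 0 < - pB l (l - 1 - k) ⟨l - 2 - k, by omega⟩
      unfold pB
      simp only
      rw [if_neg (by omega), if_pos (by omega)]
      norm_num
    · rw [cf, List.foldl_append]
      change fire (AB l) (cf (AB l) i ω) ⟨l - 2 - k, by omega⟩ = _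
      rw [h2, fire_neg, fire_pB_pred ⟨l - 2 - k, by omega⟩ (by change l - 2 - k + 1 = l - 1 - k; omega) (by omega)]
      congr 2
    · rw [List.map_append, List.sum_append, h3]
      simp only [List.map_cons, List.map_nil, List.sum_cons, List.sum_nil, add_zero]
      rw [he ⟨l - 2 - k, by omega⟩ (by change l - 2 - k + 1 < l; omega)]
      ring

/-- the label of `s_{l-2} s_{l-1}` -/
theorem LS.b_last (h : LS cs J n e a m c d) (h2 : 2 * d ≤ m) (hl : 2 ≤ l) {t : ℕ}
    (he : ∀ i : Fin l, (i : ℕ) + 1 < l → e i = t) {i : Fin l} (hi : i ∉ J) (hil : (i : ℕ) + 1 = l)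
    (hei : e i = 2 * a * d) : 4 * a * d ≤ 2 * a * d + t ∨ a * c ≤ 2 * a * d + t := by
  have hA := isCartan_AB l
  let x : Fin l := ⟨i - 1, by omega⟩
  have hxv : (x : ℕ) = i - 1 := rfl
  have hxi : x ≠ i := fun e => by have := congrArg Fin.val e; omega
  have Aix : AB l i x = -2 := by
    rw [AB_apply, if_neg hxi.symm, if_pos (by omega), if_neg (by omega)]
  have c1x : fire (AB l) (Pi.single i 1) i x = 2 := by
    change (Pi.single i 1 : Fin l → ℤ) x - AB l i x * (Pi.single i 1 : Fin l → ℤ) i = _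
    rw [Pi.single_eq_same, Pi.single_eq_of_ne hxi, Aix]; norm_num
  have hex : e x = t := he x (by omega)
  obtain ⟨h3, h4⟩ := h.ad.lab_legal hA hi (ω := [i, x]) ⟨by simp, by rw [c1x]; norm_num, trivial⟩
  simp only [List.map_cons, List.map_nil, List.sum_cons, List.sum_nil, add_zero] at h4
  rw [hei, hex] at h4
  have hpos := h.e_pos x
  rw [hex] at hpos
  rw [← h4]
  have hpos2 : 0 < 2 * a * d := by
    have := h.lab.d_pos
    have := h.a_pos
    positivity
  refine h.far h2 hi hei h3 ?_ ?_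
  · intro h5
    rw [h5, h.ad.one] at h4
    omega
  · intro h5
    rw [h5, h.ad.simple, hei] at h4
    omega

/-- a label `3 a d` is impossible -/
theorem LS.no_three (h : LS cs J n e a m c d) (h2 : 2 * d ≤ m) (h3 : 4 * a * d ≤ 3 * a * d ∨ a * c ≤ 3 * a * d) : False := by
  have hd := h.lab.d_pos
  have ha := h.a_pos
  have had : 0 < a * d := Nat.mul_pos ha hd
  rcases h3 with h3 | h3
  · have e4 : 4 * a * d = 4 * (a * d) := by ring
    have e3 : 3 * a * d = 3 * (a * d) := by ring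
    omega
  · have h4 : a * c ≤ a * (3 * d) := by
      calc a * c ≤ 3 * a * d := h3
        _ = a * (3 * d) := by ring
    have h5 := Nat.le_of_mul_le_mul_left h4 ha
    have := h.lo
    have := h.three
    omega

/-- the complement of `J` is `{0}` -/
theorem LS.b_compl (h : LS cs J n e a m c d) (hJ : J ≠ Set.univ) {t : ℕ} (he : ∀ i : Fin l, (i : ℕ) + 1 < l → e i = t)
    (hlast : ∀ i : Fin l, (i : ℕ) + 1 = l → i ∈ J) :
    ∃ i : Fin l, i ∉ J ∧ (i : ℕ) = 0 ∧ (∀ j, j ≠ i → j ∈ J) ∧ (WJ cs J).index = 2 * l := by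
  obtain ⟨i, hi⟩ : ∃ i, i ∉ J := by
    by_contra hcon
    push Not at hcon
    exact hJ (Set.eq_univ_of_forall hcon)
  have key : ∀ j : Fin l, j ∉ J → (j : ℕ) = 0 := by
    intro j hj
    by_contra h0
    have hjl := j.2
    by_cases h1 : (j : ℕ) + 1 = l
    · exact hj (hlast j h1)
    · exact h.b_mid he hj (by omega) (by omega)
  have hi0 := key i hi
  have hc : ∀ j, j ≠ i → j ∈ J := by
    intro j hj
    by_contra hcon
    exact hj (Fin.ext ((key j hcon).trans hi0.symm))
  exact ⟨i, hi, hi0, hc, index_B_zero cs hi hc hi0⟩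

theorem LS.b_le (h : LS cs J n e a m c d) (hl : 2 ≤ l) (hidx : l + 1 ≤ (WJ cs J).index) : 2 * d ≤ m :=
  h.le_of_index (by omega)

/-- **`(t, …, t, 2 t)`** -/
theorem LS.b_one_two (h : LS cs J n e a m c d) (h2 : 2 * d ≤ m) (hl : 2 ≤ l) {t : ℕ}
    (he : ∀ i : Fin l, (i : ℕ) + 1 < l → e i = t) (he' : ∀ i : Fin l, (i : ℕ) + 1 = l → e i = 2 * t) : False := by
  obtain ⟨i, hi, hei⟩ := h.node h2
  have hil := i.2
  by_cases h1 : (i : ℕ) + 1 = l
  · have h3 := h.b_last h2 hl he hi h1 hei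
    have h4 := he' i h1
    rw [hei] at h4
    have h5 : t = a * d := by
      have : 2 * t = 2 * (a * d) := by rw [← h4]; ring
      omega
    rw [h5] at h3
    have e3 : 2 * a * d + a * d = 3 * a * d := by ring
    rw [e3] at h3
    exact h.no_three h2 h3
  · have h4 := he i (by omega)
    rw [hei] at h4
    apply h.not_dvd
    intro j
    have hj := j.2
    by_cases h5 : (j : ℕ) + 1 = l
    · rw [he' j h5, ← h4]
      exact ⟨2 * d, by ring⟩
    · rw [he j (by omega), ← h4]
      exact ⟨d, by ring⟩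

/-- **`(2 t, …, 2 t, t)`** -/
theorem LS.b_two_one (h : LS cs J n e a m c d) (hJ : J ≠ Set.univ) (h2 : 2 * d ≤ m) (hl : 2 ≤ l) {t : ℕ}
    (he : ∀ i : Fin l, (i : ℕ) + 1 < l → e i = 2 * t) (he' : ∀ i : Fin l, (i : ℕ) + 1 = l → e i = t) :
    t = a ∧ l = m ∧ c + 1 = 2 * m := by
  have hd := h.lab.d_pos
  have ha := h.a_pos
  have had : 0 < a * d := Nat.mul_pos ha hd
  obtain ⟨i, hi, hei⟩ := h.node h2
  have hil := i.2
  have h1 : (i : ℕ) + 1 ≠ l := by
    intro h1
    have h4 := he' i h1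
    rw [hei] at h4
    apply h.not_dvd
    intro j
    have hj := j.2
    by_cases h5 : (j : ℕ) + 1 = l
    · rw [he' j h5, ← h4]
      exact ⟨d, by ring⟩
    · rw [he j (by omega), ← h4]
      exact ⟨2 * d, by ring⟩
  have ht : t = a * d := by
    have h4 := he i (by omega)
    rw [hei] at h4
    have : 2 * t = 2 * (a * d) := by rw [← h4]; ring
    omega
  obtain ⟨i₀, hi₀, hi₀0, hc, hidx⟩ := h.b_compl hJ he (by
    intro j hj
    by_contra hjJ
    have h5 := h.ge_simple h2 hjJ
    rw [he' j hj, ht] at h5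
    have : 2 * a * d = 2 * (a * d) := by ring
    omega)
  obtain ⟨m', hm1, hm2⟩ := h.lab.half
  obtain rfl : l = m' := by omega
  obtain ⟨ω, o1, o2, o3⟩ := exists_up he hi₀0 (l - 1) (by omega)
  obtain ⟨υ, u1, u2, u3⟩ := exists_down he he' hi₀0 0 (by omega)
  obtain ⟨o4, o5⟩ := h.ad.lab_legal (isCartan_AB l) hi₀ o1
  obtain ⟨u4, u5⟩ := h.ad.lab_legal (isCartan_AB l) hi₀ u1
  rw [o3] at o5
  rw [u3] at u5
  obtain ⟨r, rfl⟩ : ∃ r, l = r + 1 := ⟨l - 1, by omega⟩
  have hr1 : r + 1 - 1 = r := by omega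
  rw [hr1] at o5 u5
  have hlt : a * c ≤ n (cs.wordProd υ)⁻¹ := by
    rcases h.mem0 u4 with ⟨x, hx, h6⟩ | h6
    · exfalso
      rw [u5] at h6
      -- `2 x = (2 r + 1) d`
      have h7 : a * (2 * x) = a * ((2 * r + 1) * d) := by
        calc a * (2 * x) = 2 * a * x := by ring
          _ = (r + 0) * (2 * t) + t := h6.symm
          _ = a * ((2 * r + 1) * d) := by rw [ht]; ring
      have h8 := Nat.eq_of_mul_eq_mul_left ha h7
      have h9 : (2 * r + 1) * d = 2 * (r * d) + d := by ring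
      obtain ⟨y, hy⟩ : ∃ y, d = 2 * y := ⟨x - r * d, by omega⟩
      have h10 := h.lab.inj _ _ u4 o4 0 hd y (by omega) (by
        rw [u5, o5, ht, hy]; ring)
      have h11 : n (cs.wordProd υ)⁻¹ = n (cs.wordProd ω)⁻¹ := by rw [h10.1]
      rw [u5, o5, add_zero] at h11
      omega
    · exact h6
  rw [u5, ht] at hlt
  have h6 : a * c ≤ a * ((2 * r + 1) * d) := by
    calc a * c ≤ (r + 0) * (2 * (a * d)) + a * d := hlt
      _ = a * ((2 * r + 1) * d) := by ring
  have h7 := Nat.le_of_mul_le_mul_left h6 ha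
  have h8 : (2 * r + 1) * d = 2 * (r * d) + d := by ring
  have h9 : (r + 1) * d = r * d + d := by ring
  have h10 := h.lo
  have hd1 : d = 1 := by omega
  subst hd1
  refine ⟨by rw [ht, mul_one], by omega, by omega⟩

/-- **`(2 t, …, 2 t, 3 t)`** -/
theorem LS.b_two_three (h : LS cs J n e a m c d) (hJ : J ≠ Set.univ) (h2 : 2 * d ≤ m) (hl : 2 ≤ l) {t : ℕ}
    (he : ∀ i : Fin l, (i : ℕ) + 1 < l → e i = 2 * t) (he' : ∀ i : Fin l, (i : ℕ) + 1 = l → e i = 3 * t) :
    t = a ∧ l = m ∧ c = 2 * m + 1 := by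
  have hd := h.lab.d_pos
  have ha := h.a_pos
  have had : 0 < a * d := Nat.mul_pos ha hd
  obtain ⟨i, hi, hei⟩ := h.node h2
  have hil := i.2
  have h1 : (i : ℕ) + 1 ≠ l := by
    intro h1
    have h3 := h.b_last h2 hl he hi h1 hei
    have h4 := he' i h1
    rw [hei] at h4
    have e2 : 2 * a * d = 2 * (a * d) := by ring
    have e4 : 4 * a * d = 4 * (a * d) := by ring
    rw [e2] at h4
    rcases h3 with h3 | h3
    · rw [e2, e4] at h3
      omega
    · -- `3 a c ≤ 10 a d`
      rw [e2] at h3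
      have h5 : a * (3 * c) ≤ a * (10 * d) := by
        have e5 : a * (3 * c) = 3 * (a * c) := by ring
        have e6 : a * (10 * d) = 10 * (a * d) := by ring
        rw [e5, e6]
        omega
      have h6 := Nat.le_of_mul_le_mul_left h5 ha
      have := h.lo
      have := h.three
      omega
  have ht : t = a * d := by
    have h4 := he i (by omega)
    rw [hei] at h4
    have : 2 * t = 2 * (a * d) := by rw [← h4]; ring
    omega
  obtain ⟨i₀, hi₀, hi₀0, hc, hidx⟩ := h.b_compl hJ he (by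
    intro j hj
    by_contra hjJ
    have h5 := h.far h2 hi hei (isMinR_simple (cs := cs) hjJ) (Trace.simple_ne_one j) (by
      intro h6
      have h7 : n (cs.simple j) = n (cs.simple i) := by rw [h6]
      rw [h.ad.simple, h.ad.simple, he' j hj, he i (by omega)] at h7
      omega)
    rw [h.ad.simple, he' j hj, ht] at h5
    have e3 : 3 * (a * d) = 3 * a * d := by ring
    rw [e3] at h5
    exact h.no_three h2 h5)
  obtain ⟨m', hm1, hm2⟩ := h.lab.half
  obtain rfl : l = m' := by omega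
  obtain ⟨υ, u1, u2, u3⟩ := exists_down he he' hi₀0 (l - 1) (by omega)
  obtain ⟨u4, u5⟩ := h.ad.lab_legal (isCartan_AB l) hi₀ u1
  rw [u3] at u5
  obtain ⟨r, rfl⟩ : ∃ r, l = r + 1 := ⟨l - 1, by omega⟩
  have hr1 : r + 1 - 1 = r := by omega
  rw [hr1] at u5
  obtain ⟨s, rfl⟩ : ∃ s, d = s + 1 := ⟨d - 1, by omega⟩
  have h5 := h.lab.mem _ u4 s (by omega)
  obtain ⟨x, hx, h6⟩ := mem_LamSet.1 h5
  rw [u5, ht] at h6
  have h7 : a * ((4 * r + 3) * (s + 1) + 2 * s) ≤ a * (c + 2 * x) := by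
    rcases h6 with h6 | h6
    · calc a * ((4 * r + 3) * (s + 1) + 2 * s) = (r + r) * (2 * (a * (s + 1))) + 3 * (a * (s + 1)) + 2 * a * s := by ring
        _ = 2 * a * x := h6
        _ ≤ a * (c + 2 * x) := by rw [mul_add]; nlinarith [Nat.zero_le (a * c)]
    · calc a * ((4 * r + 3) * (s + 1) + 2 * s) = (r + r) * (2 * (a * (s + 1))) + 3 * (a * (s + 1)) + 2 * a * s := by ring
        _ = a * c + 2 * a * x := h6
        _ ≤ a * (c + 2 * x) := by rw [mul_add]; nlinarith [Nat.zero_le (a * c)]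
  have h8 := Nat.le_of_mul_le_mul_left h7 ha
  have h9 : (4 * r + 3) * (s + 1) = 4 * (r * s) + 4 * r + 3 * s + 3 := by ring
  have h10 : (r + 1) * (s + 1) = r * s + r + s + 1 := by ring
  have h11 := h.hi
  have hs : s = 0 := by
    rw [h9] at h8
    rw [h10] at hm2
    omega
  subst hs
  have h12 : r * 0 = 0 := mul_zero r
  refine ⟨by rw [ht]; ring, by omega, ?_⟩
  rw [h9] at h8
  omega

end Cfsg.Agent.H985.UT
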