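import Cfsg.Agent.H985.UT.OneRGD

/-!
# Groups transitive on the isotropic points in the defining characteristic: the families (helper985, S2196 part B3)

**`UC.main`** : if `Y / Z(Y)` is of Lie type in characteristic `p`, then `Y / Z(Y) ≃ PSU_n(q)`, `n = 2 m` or `2 m + 1`.
-/

set_option autoImplicit false
set_option linter.unusedSectionVars false
set_option linter.style.haveILetI false

namespace Cfsg.Agent.H985.UT

open Cfsg Module Cfsg.Agent.H50.Her
open Cfsg.Agent.ChevalleyStructure.CoxeterGeom Cfsg.Agent.Nodes.Reps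
open Cfsg.Agent.Tits.Core Cfsg.Agent.Tits.Core.Bldg Cfsg.Agent.Tits.Exchange Cfsg.Agent.Tits
open Cfsg.Agent.FixBN Cfsg.Agent.FixBN.Cox Cfsg.Agent.LieRecognition.BNCox Cfsg.Agent.Nodes.RGDChev
open Cfsg.Agent.H905.DC

universe u v w x

variable {p : ℕ} {Y : Type u} [Group Y] {k : Type v} {V : Type w} [Field k] [AddCommGroup V] [Module k V]
variable {ρ : Y →* Module.End k V} {β : V → Module.Dual k V} {a m c : ℕ}
variable [hp : Fact p.Prime] [CharP k p] [Finite Y] [Finite k] [Finite V] [Nontrivial V]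

theorem UC.bld (h : UC p ρ β a m c) {l : ℕ} (hl : 0 < l) {M : CoxeterMatrix (Fin l)} {q : Fin l → ℕ} {S' : Type x}
    [Group S'] (hP : HasPan p M q S') (e : Y ⧸ Subgroup.center Y ≃* S') : HasBld p M q Y := by
  have := h.simple
  exact Cfsg.Agent.H797.HerSys.hasBld_of_pan hp.out hl (hP.of_equiv e.symm) (QuotientGroup.mk' (Subgroup.center Y))
    (QuotientGroup.ker_mk' _) (by rw [QuotientGroup.ker_mk']; exact h.cop) (QuotientGroup.mk'_surjective _)

theorem UC.sysT (h : UC p ρ β a m c) {l : ℕ} (hl : 0 < l) {M : CoxeterMatrix (Fin l)} {S' : Type x} [Group S']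
    (hP : Cfsg.Agent.Omega.ML.Ex.Typ.HasRGDT p M S') (e : Y ⧸ Subgroup.center Y ≃* S') : HasSysT p M Y := by
  have := h.simple
  exact Cfsg.Agent.H797.HerSys.hasSysT_of_rgdT hp.out hl (hP.of_equiv e.symm) (QuotientGroup.mk' (Subgroup.center Y))
    (QuotientGroup.ker_mk' _) (by rw [QuotientGroup.ker_mk']; exact h.cop) (QuotientGroup.mk'_surjective _)

/-- simply laced types -/
theorem UC.laced (h : UC p ρ β a m c) {l : ℕ} (hl : 2 ≤ l) {M : CoxeterMatrix (Fin l)}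
    (hM : ∀ i j, i ≠ j → M i j = 2 ∨ M i j = 3) (hc : KFacts.RgdCharP.Conn M) {S' : Type x} [Group S']
    (hP : Cfsg.Agent.Omega.ML.Ex.Typ.HasRGDT p M S') (e : Y ⧸ Subgroup.center Y ≃* S') : False := by
  have : Nonempty (Fin l) := ⟨⟨0, by omega⟩⟩
  have hB := h.sysT (by omega) hP e
  obtain ⟨A, hA, -⟩ := hP
  obtain ⟨W, iW, iWf, cs, J, n, e, d, hJ, hL⟩ := h.core hB
  have hidx := rank_lt_index cs hA hc hJ
  rw [Fintype.card_fin] at hidx
  refine hL.all_eq (hL.le_of_index (by omega)) ?_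
  have key : ∀ i j, e i = e j := by
    intro i j
    by_contra hne
    obtain ⟨x, hx, y, hy, hxy⟩ := hc {z | e z = e i} ⟨i, rfl⟩ (by
      intro hu
      apply hne
      have : j ∈ {z | e z = e i} := by rw [hu]; trivial
      exact this.symm)
    have hx' : e x = e i := hx
    apply hy
    change e y = e i
    have hne' : x ≠ y := by
      rintro rfl
      exact hy hx
    have h3 := (hM x y hne').resolve_left hxy
    rw [← hL.ad.eq_of_three hA h3, hx']
  exact key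

/-- equal panels -/
theorem UC.equal (h : UC p ρ β a m c) {l : ℕ} (hl : 2 ≤ l) {M : CoxeterMatrix (Fin l)}
    (hc : KFacts.RgdCharP.Conn M) {S' : Type x} [Group S'] {r : ℕ}
    (hP : HasPan p M (fun _ => r) S') (e : Y ⧸ Subgroup.center Y ≃* S') : False := by
  have : Nonempty (Fin l) := ⟨⟨0, by omega⟩⟩
  have hB := h.bld (by omega) hP e
  obtain ⟨A, hA, -⟩ := hP
  obtain ⟨W, iW, iWf, cs, J, n, e, d, hJ, hL, hq⟩ := h.corePan hB
  have hidx := rank_lt_index cs hA hc hJ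
  rw [Fintype.card_fin] at hidx
  exact hL.all_eq (hL.le_of_index (by omega)) fun i j =>
    Nat.pow_right_injective hp.out.two_le ((hq i).symm.trans (hq j))

/-- rank two, `M 0 1 ≥ 6` -/
theorem UC.two (h : UC p ρ β a m c) {M : CoxeterMatrix (Fin 2)} (hM : 6 ≤ M 0 1) (hB : HasSysT p M Y) : False := by
  obtain ⟨W, iW, iWf, cs, J, n, e, d, hJ, hL⟩ := h.core hB
  exact hL.two hJ hM

/-- type `F₄` -/
theorem UC.f4 (h : UC p ρ β a m c) (hB : HasSysT p CoxeterMatrix.F₄ Y) : False := by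
  obtain ⟨W, iW, iWf, cs, J, n, e, d, hJ, hL⟩ := h.core hB
  exact hL.f4 hJ

/-- the data of type `B_l` -/
theorem UC.typeB (h : UC p ρ β a m c) {l : ℕ} (hl : 2 ≤ l) {r r' : ℕ} {S' : Type x} [Group S']
    (hP : HasPan p (CoxeterMatrix.B l) (fun i => if (i : ℕ) + 1 < l then r else r') S')
    (e : Y ⧸ Subgroup.center Y ≃* S') :
    ∃ (W : Type u) (_ : Group W) (_ : Finite W) (cs : CoxeterSystem (CoxeterMatrix.B l) W) (J : Set (Fin l))
      (n : W → ℕ) (e : Fin l → ℕ) (d : ℕ), J ≠ Set.univ ∧ LS cs J n e a m c d ∧ 2 * d ≤ m ∧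
        (∀ i : Fin l, (i : ℕ) + 1 < l → r = p ^ e i) ∧ ∀ i : Fin l, (i : ℕ) + 1 = l → r' = p ^ e i := by
  have : Nonempty (Fin l) := ⟨⟨0, by omega⟩⟩
  have hB := h.bld (by omega) hP e
  obtain ⟨A, hA, -⟩ := hP
  obtain ⟨W, iW, iWf, cs, J, n, e, d, hJ, hL, hq⟩ := h.corePan hB
  have hidx := rank_lt_index cs hA (Cfsg.Agent.H538.MFacts.irr_B l) hJ
  rw [Fintype.card_fin] at hidx
  refine ⟨W, iW, iWf, cs, J, n, e, d, hJ, hL, hL.le_of_index (by omega), fun i hi => ?_, fun i hi => ?_⟩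
  · rw [← hq i, if_pos hi]
  · rw [← hq i, if_neg (by omega)]

/-- **`PSL_n(K)`** -/
theorem UC.psl (h : UC p ρ β a m c) {K : Type} [Field K] [Fintype K] [CharP K p] {n : ℕ} (hn : 2 ≤ n)
    (e : Y ⧸ Subgroup.center Y ≃* Matrix.ProjectiveSpecialLinearGroup (Fin n) K) : False := by
  obtain ⟨n, rfl⟩ : ∃ r, n = r + 1 := ⟨n - 1, by omega⟩
  rcases Nat.lt_or_ge n 2 with h2 | h2
  · obtain rfl : n = 1 := by omega
    have := h.simple
    have : IsSimpleGroup (Matrix.ProjectiveSpecialLinearGroup (Fin (1 + 1)) K) := e.symm.isSimpleGroup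
    have hk : (e.toMonoidHom.comp (QuotientGroup.mk' (Subgroup.center Y))).ker = Subgroup.center Y := by
      rw [← MonoidHom.comap_ker]
      rw [(MonoidHom.ker_eq_bot_iff _).2 e.injective]
      exact QuotientGroup.ker_mk' _
    refine h.one (one_psl (p := p) (F := K) (e.toMonoidHom.comp (QuotientGroup.mk' (Subgroup.center Y))) hk ?_
      (e.surjective.comp (QuotientGroup.mk'_surjective _)))
    rw [hk]
    exact h.cop
  · exact h.equal h2 (Cfsg.Agent.H538.MFacts.irr_A n) (Cfsg.Agent.H804.PanPSL.pan_psl (F := K) n (p := p)) e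

/-- **`PΩ⁻_{2m}(K)`** -/
theorem UC.po_minus (h : UC p ρ β a m c) {K : Type} [Field K] [Fintype K] [CharP K p] {r : ℕ} (hm : 4 ≤ r) {x y : K}
    (hab : ∀ z₁ z₂ : K, z₁ ^ 2 + x * z₁ * z₂ + y * z₂ ^ 2 = 0 → z₁ = 0 ∧ z₂ = 0)
    (e : Y ⧸ Subgroup.center Y ≃* POmega K (quadFormMinus (r - 1) K x y)) : False := by
  obtain ⟨W, iW, iWf, cs, J, n, e, d, hJ, hL, h2, h3, h4⟩ :=
    h.typeB (by omega) (Cfsg.Agent.H353.PanO.pan_po_minus hab (by omega)) e
  have hq0 := h3 ⟨0, by omega⟩ (by change 0 + 1 < r - 1; omega)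
  refine hL.b_one_two h2 (by omega) (t := e ⟨0, by omega⟩) (fun i hi => ?_) (fun i hi => ?_)
  · exact Nat.pow_right_injective hp.out.two_le ((h3 i hi).symm.trans hq0)
  · apply Nat.pow_right_injective hp.out.two_le
    change p ^ e i = p ^ (2 * e ⟨0, by omega⟩)
    rw [← h4 i hi, hq0, ← pow_mul, mul_comm]

/-- the outcome -/
def Out (p a m c : ℕ) (X : Type*) [Group X] : Prop :=
  ∃ (K : Type) (_ : Field K) (_ : Fintype K), Fintype.card K = (p ^ a) ^ 2 ∧
    ((c + 1 = 2 * m ∧ Nonempty (X ≃* PSU (2 * m) K (p ^ a))) ∨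
      (c = 2 * m + 1 ∧ Nonempty (X ≃* PSU (2 * m + 1) K (p ^ a))))

/-- **`PSU_n(q)`** -/
theorem UC.psu (h : UC p ρ β a m c) {K : Type} [Field K] [Fintype K] [CharP K p] {n q : ℕ} (hK : Fintype.card K = q ^ 2)
    (hn : 3 ≤ n) (e : Y ⧸ Subgroup.center Y ≃* PSU n K q) : Out p a m c (Y ⧸ Subgroup.center Y) := by
  obtain ⟨l, hm⟩ : ∃ l, n = 2 * l ∨ n = 2 * l + 1 := ⟨n / 2, by omega⟩
  have hq : ∃ t, q = p ^ t := by
    obtain ⟨s, hs, hc⟩ := FiniteField.card K p
    have h1 : q ∣ p ^ (s : ℕ) := by rw [← hc, hK]; exact Dvd.intro _ (pow_two q).symm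
    obtain ⟨t, -, ht⟩ := (Nat.dvd_prime_pow hp.out).1 h1
    exact ⟨t, ht⟩
  obtain ⟨t, rfl⟩ := hq
  have hinj := Nat.pow_right_injective hp.out.two_le
  rcases hm with rfl | rfl
  · obtain ⟨W, iW, iWf, cs, J, n, e', d, hJ, hL, h2, h3, h4⟩ :=
      h.typeB (by omega) (Cfsg.Agent.H742.pan_psu_even hK (p := p) (by omega)) e
    obtain ⟨h5, h6, h7⟩ := hL.b_two_one hJ h2 (by omega) (t := t)
      (fun i hi => hinj (by change p ^ e' i = p ^ (2 * t); rw [← h3 i hi, ← pow_mul, mul_comm]))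
      (fun i hi => hinj (h4 i hi).symm)
    subst h5 h6
    exact ⟨K, inferInstance, inferInstance, hK, Or.inl ⟨h7, ⟨e⟩⟩⟩
  · rcases Nat.lt_or_ge l 2 with h2 | h2
    · obtain rfl : l = 1 := by omega
      exfalso
      have := h.simple
      have : IsSimpleGroup (PSU (2 * 1 + 1) K (p ^ t)) := e.symm.isSimpleGroup
      have hk : (e.toMonoidHom.comp (QuotientGroup.mk' (Subgroup.center Y))).ker = Subgroup.center Y := by
        rw [← MonoidHom.comap_ker]
        rw [(MonoidHom.ker_eq_bot_iff _).2 e.injective]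
        exact QuotientGroup.ker_mk' _
      refine h.one (one_psu (p := p) (F := K) hK ?_ (e.toMonoidHom.comp (QuotientGroup.mk' (Subgroup.center Y))) hk ?_
        (e.surjective.comp (QuotientGroup.mk'_surjective _)))
      · obtain ⟨Q, hQ, x, hx, y, hy, hne⟩ := Cfsg.Agent.H892.HerSz.psu3_noncomm hK (p := p)
        rcases (inferInstance : IsSimpleGroup (PSU 3 K (p ^ t))).eq_bot_or_eq_top_of_normal (Subgroup.center _)
          inferInstance with h3 | h3
        · exact h3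
        · exfalso
          apply hne
          have h4 : x ∈ Subgroup.center (PSU 3 K (p ^ t)) := by rw [h3]; trivial
          exact (Subgroup.mem_center_iff.1 h4 y).symm
      · rw [hk]
        exact h.cop
    · obtain ⟨W, iW, iWf, cs, J, n, e', d, hJ, hL, h2, h3, h4⟩ :=
        h.typeB (by omega) (Cfsg.Agent.H742.pan_psu_odd hK (p := p) (by omega)) e
      obtain ⟨h5, h6, h7⟩ := hL.b_two_three hJ h2 (by omega) (t := t)
        (fun i hi => hinj (by change p ^ e' i = p ^ (2 * t); rw [← h3 i hi, ← pow_mul, mul_comm]))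
        (fun i hi => hinj (by change p ^ e' i = p ^ (3 * t); rw [← h4 i hi, ← pow_mul, mul_comm]))
      subst h5 h6
      exact ⟨K, inferInstance, inferInstance, hK, Or.inr ⟨h7, ⟨e⟩⟩⟩

set_option backward.isDefEq.respectTransparency false in
theorem laced_E6 : ∀ i j : Fin 6, i ≠ j → CoxeterMatrix.E₆ i j = 2 ∨ CoxeterMatrix.E₆ i j = 3 := by decide +kernel

set_option backward.isDefEq.respectTransparency false in
theorem laced_E7 : ∀ i j : Fin 7, i ≠ j → CoxeterMatrix.E₇ i j = 2 ∨ CoxeterMatrix.E₇ i j = 3 := by decide +kernel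

set_option backward.isDefEq.respectTransparency false in
theorem laced_E8 : ∀ i j : Fin 8, i ≠ j → CoxeterMatrix.E₈ i j = 2 ∨ CoxeterMatrix.E₈ i j = 3 := by decide +kernel

theorem laced_D (n : ℕ) (i j : Fin (n + 2)) (hij : i ≠ j) :
    Cfsg.Agent.Nodes.TypeD.M n i j = 2 ∨ Cfsg.Agent.Nodes.TypeD.M n i j = 3 := by
  change (if i = j then 1 else if Cfsg.Agent.Nodes.TypeD.Adj i j ∨ Cfsg.Agent.Nodes.TypeD.Adj j i then 3 else 2) = 2 ∨
    (if i = j then 1 else if Cfsg.Agent.Nodes.TypeD.Adj i j ∨ Cfsg.Agent.Nodes.TypeD.Adj j i then 3 else 2) = 3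
  rw [if_neg hij]
  split_ifs
  · exact Or.inr rfl
  · exact Or.inl rfl

/-- **The defining characteristic.** -/
theorem UC.main (h : UC p ρ β a m c) (hS : IsLieTypeChar p (Y ⧸ Subgroup.center Y)) :
    Out p a m c (Y ⧸ Subgroup.center Y) := by
  rcases hS with hS | hS | hS | hS | hS | hS | hS | hS | hS | hS | hS
  · obtain ⟨K, _, _, _, n, hn, hn2, ⟨e⟩⟩ := hS
    exact (h.psl hn e).elim
  · obtain ⟨K, _, _, _, r, hm, hm2, ⟨e⟩⟩ := hS
    exact (h.equal hm (Cfsg.Agent.H538.MFacts.irr_B r) (Cfsg.Agent.H742.pan_psp (F := K) (p := p) (by omega)) e).elim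
  · obtain ⟨K, _, _, _, n, q, hK, hn, -, ⟨e⟩⟩ := hS
    exact h.psu hK hn e
  · obtain ⟨K, _, _, _, r, hm, ho, ⟨e⟩⟩ := hS
    have hp2 : p ≠ 2 := by
      rintro rfl
      obtain ⟨k, hk, hc⟩ := FiniteField.card K 2
      rw [hc] at ho
      exact (Nat.not_even_iff_odd.2 ho) ((Nat.even_pow.2 ⟨even_two, k.2.ne'⟩))
    exact (h.equal (by omega) (Cfsg.Agent.H538.MFacts.irr_B r) (Cfsg.Agent.H353.PanO.pan_po_odd hm hp2) e).elim
  · obtain ⟨K, _, _, _, r, hm, ⟨e⟩⟩ := hS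
    obtain ⟨n, rfl⟩ : ∃ n, r = n + 3 := ⟨r - 3, by omega⟩
    exact (h.laced (by omega) (laced_D (n + 1)) (Cfsg.Agent.H538.MFacts.irr_D (n + 1) (by omega))
      (Cfsg.Agent.Omega.ML.Ex.Typ.typ_PO_plus n) e).elim
  · obtain ⟨K, _, _, _, r, x, y, hm, hab, ⟨e⟩⟩ := hS
    exact (h.po_minus hm hab e).elim
  · obtain ⟨K, _, _, _, hS⟩ := hS
    exfalso
    rcases hS with ⟨hK, ⟨e⟩⟩ | ⟨⟨e⟩⟩ | ⟨⟨e⟩⟩ | ⟨⟨e⟩⟩ | ⟨⟨e⟩⟩
    · exact h.two (by decide +kernel) (h.sysT (by omega)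
        (Cfsg.Agent.Omega.ML.Ex.Typ.typ_group (by simp [IsType, typeList]) K p :
          Cfsg.Agent.Omega.ML.Ex.Typ.HasRGDT p CoxeterMatrix.G₂ _) e)
    · exact h.f4 (h.sysT (by omega) (Cfsg.Agent.Omega.ML.Ex.Typ.typ_group (by simp [IsType, typeList]) K p) e)
    · exact h.laced (by omega) laced_E6 Cfsg.Agent.H538.MFacts.irr_E6
        (Cfsg.Agent.Omega.ML.Ex.Typ.typ_group (by simp [IsType, typeList]) K p) e
    · exact h.laced (by omega) laced_E7 Cfsg.Agent.H538.MFacts.irr_E7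
        (Cfsg.Agent.Omega.ML.Ex.Typ.typ_group (by simp [IsType, typeList]) K p) e
    · exact h.laced (by omega) laced_E8 Cfsg.Agent.H538.MFacts.irr_E8
        (Cfsg.Agent.Omega.ML.Ex.Typ.typ_group (by simp [IsType, typeList]) K p) e
  · obtain ⟨K, _, _, _, q, hq, ⟨hK, ⟨e⟩⟩ | ⟨hK, ⟨e⟩⟩⟩ := hS
    · exact (h.f4 (h.sysT (by omega) (Cfsg.Agent.Omega.ML.Ex.Typ.typ_twE6 hq hK p) e)).elim
    · exact (h.two (by decide +kernel) (h.sysT (by omega) (Cfsg.Agent.Omega.ML.Ex.Typ.typ_twD4 hq hK p) e)).elim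
  · obtain ⟨rfl, hS⟩ := hS
    exact (h.one (one_sz hS (QuotientGroup.mk' (Subgroup.center Y)) (QuotientGroup.ker_mk' _)
      (by rw [QuotientGroup.ker_mk']; exact h.cop) (QuotientGroup.mk'_surjective _))).elim
  · obtain ⟨rfl, hS⟩ := hS
    obtain ⟨M, hM, h1, -⟩ := Cfsg.Agent.H60.HerTwF4.sys_twF4 hS (QuotientGroup.mk' (Subgroup.center Y))
      (QuotientGroup.ker_mk' _) (by rw [QuotientGroup.ker_mk']; exact h.cop) (QuotientGroup.mk'_surjective _)
    exact (h.two (by omega) h1).elim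
  · obtain ⟨rfl, hS⟩ := hS
    exact (h.one (one_ree hS (QuotientGroup.mk' (Subgroup.center Y)) (QuotientGroup.ker_mk' _)
      (by rw [QuotientGroup.ker_mk']; exact h.cop) (QuotientGroup.mk'_surjective _))).elim

end Cfsg.Agent.H985.UT
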