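import Cfsg.Agent.H50.HerCnt

/-!
# Labels for groups transitive on the isotropic points (helper985, S2196 part B3)

`S : Sys Δ G p`, `ρ` simple over the finite field `k` with `p ^ (2 a)` elements, `β` an invariant nondegenerate reflexive
sesquilinear form (`β w v = ⟨v, w⟩`), every isotropic vector is in a block (`hcov`).

* `Frm ρ β`; `exists_pair`, `eq_of_pair` : the pairing of the blocks of an apartment; `isotropic`;
* `even_index` : `|W : W_J|` is even;
* `card_iso` : the number of isotropic vectors;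
* **`labels`** : if there are `(Q ^ m - 1) (q ^ c + 1)` isotropic vectors, `Q = p ^ (2 a)`, `q ^ c = p ^ (a c)`, `c` odd and
  `dim V ≤ 2 m + 1`, then `|W : W_J| d = 2 m`, `d = dim Vx`, and the numbers `n w + 2 a j`, `w` `J`-minimal, `j < d`, are exactly
  the numbers `2 a i`, `a c + 2 a i`, `i < m`.
-/

set_option autoImplicit false
set_option linter.unusedSectionVars false
set_option linter.style.haveILetI false

namespace Cfsg.Agent.H985.UT

open Cfsg.Agent.Tits.Core Cfsg.Agent.Tits.Core.Bldg Cfsg.Agent.Tits.Exchange Cfsg.Agent.Tits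
open Cfsg.Agent.FixBN Cfsg.Agent.FixBN.Cox Cfsg.Agent.Omega.CR Cfsg.Agent.Omega.CR.Bl Cfsg.Agent.H905.DC
open Cfsg.Agent.H50.Her

variable {I : Type*} {M : CoxeterMatrix I} {W : Type*} [Group W] {cs : CoxeterSystem M W} {C : Type*}
  {Δ : Bldg cs C}

local prefix:100 "ℓ" => cs.length

variable {G : Type*} [Group G] [MulAction G C] {p : ℕ} {S : Sys Δ G p} [F : OppRes.Cox cs]
  {k V : Type*} [Field k] [AddCommGroup V] [Module k V] {ρ : G →* Module.End k V}

/-- an invariant nondegenerate reflexive sesquilinear form, `β w v = ⟨v, w⟩` -/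
structure Frm (ρ : G →* Module.End k V) (β : V → Module.Dual k V) : Prop where
  add : ∀ w w', β (w + w') = β w + β w'
  inv : ∀ g w v, β (ρ g w) (ρ g v) = β w v
  symm : ∀ v w, β v w = 0 → β w v = 0
  nondeg : ∀ w, β w = 0 → w = 0

namespace Frm

variable {β : V → Module.Dual k V}

theorem zero (hβ : Frm ρ β) : β 0 = 0 := by
  have h := hβ.add 0 0
  rw [add_zero] at h
  exact left_eq_add.1 h

theorem neg (hβ : Frm ρ β) (w : V) : β (-w) = -β w := by
  have h := hβ.add w (-w)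
  rw [add_neg_cancel, hβ.zero] at h
  exact (neg_eq_of_add_eq_zero_right h.symm).symm

theorem inj (hβ : Frm ρ β) : Function.Injective β := by
  intro w w' h
  have h1 := hβ.add w (-w')
  rw [hβ.neg, h, add_neg_cancel] at h1
  have h2 := hβ.nondeg _ h1
  exact add_neg_eq_zero.1 h2

theorem surj [Finite k] [Finite V] (hβ : Frm ρ β) (φ : Module.Dual k V) : ∃ w, β w = φ := by
  have hfin : FiniteDimensional k V := Module.Finite.of_finite
  have hfd : Finite (Module.Dual k V) := Module.finite_of_finite k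
  have h1 : Nat.card V = Nat.card (Module.Dual k V) := by
    rw [Module.natCard_eq_pow_finrank (K := k) (V := V),
      Module.natCard_eq_pow_finrank (K := k) (V := Module.Dual k V), Subspace.dual_finrank_eq]
  exact ((Nat.bijective_iff_injective_and_card β).2 ⟨hβ.inj, h1⟩).2 φ

theorem mem_iff (hβ : Frm ρ β) {x : C} {w : V} : β w ∈ Vx S (dualRep ρ) x ↔ w ∈ Vx S ρ x := by
  constructor
  · intro h u hu
    apply hβ.inj
    refine LinearMap.ext fun v => ?_
    have h1 := (mem_fx_dual ρ).1 h u⁻¹ (inv_mem hu) v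
    have h2 := hβ.inv u w (ρ u⁻¹ v)
    rw [rho_rho_inv] at h2
    rw [h2, h1]
  · intro h
    refine (mem_fx_dual ρ).2 fun u hu v => ?_
    have h2 := hβ.inv u w v
    rwa [h u hu] at h2

end Frm

section pairing

variable {β : V → Module.Dual k V}
variable [Fintype C] [Fact p.Prime] [CharP k p] (hth : Δ.Thick) [Finite G] [Finite k] [Finite V]
  (hirr : ∀ L : Submodule k V, Ivt ρ ⊤ L → L = ⊥ ∨ L = ⊤) (hβ : Frm ρ β)

include hth hirr hβ

theorem exists_pair {c d : C} (hcd : Δ.Opp c d) {v : V} (hv : v ∈ Vx S ρ c) (hv0 : v ≠ 0) :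
    ∃ w ∈ Vx S ρ d, β w v ≠ 0 := by
  have hfin : FiniteDimensional k V := Module.Finite.of_finite
  obtain ⟨φ, hφ, h⟩ := exists_pair_Vx (S := S) hth hirr hcd hv hv0
  obtain ⟨w, rfl⟩ := hβ.surj φ
  exact ⟨w, hβ.mem_iff.1 hφ, h⟩

theorem eq_of_pair {c : W → C} (hc : IsApt Δ c) {a u : W} {v w : V} (hw : w ∈ Vx S ρ (c a)) (hv : v ∈ Vx S ρ (c u))
    (h : β w v ≠ 0) : Vx S ρ (c u) = Vx S ρ (c (a * w0 cs)) := by
  have hfin : FiniteDimensional k V := Module.Finite.of_finite
  have h1 := Vx_eq_of_pair_apt (S := S) hth hirr (hc.shift a) (φ := β w) (w := a⁻¹ * u) (v := v)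
    (by rw [mul_one]; exact hβ.mem_iff.2 hw) (by rw [mul_inv_cancel_left]; exact hv) h
  rwa [mul_inv_cancel_left] at h1

variable (hJ : Jset S ρ ≠ Set.univ)

omit hth hirr hβ [Fintype C] [Fact p.Prime] [CharP k p] [Finite G] [Finite k] [Finite V] in
include hJ in
theorem w0_notMem : w0 cs ∉ WJ cs (Jset S ρ) := by
  intro h
  apply hJ
  refine Set.eq_univ_of_forall fun i => ?_
  refine F.descent_mem _ _ h i ?_
  have h1 := length_le_w0 (cs := cs) (w0 cs * cs.simple i)
  exact lt_of_le_of_ne h1 (cs.length_mul_simple_ne _ i)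

include hJ

theorem isotropic [Nontrivial V] (x : C) {v w : V} (hv : v ∈ Vx S ρ x) (hw : w ∈ Vx S ρ x) : β w v = 0 := by
  have hfin : FiniteDimensional k V := Module.Finite.of_finite
  by_contra h
  obtain ⟨c, h1, hc⟩ := exists_apt (Δ := Δ) x
  have h2 := eq_of_pair (S := S) hth hirr hβ hc (a := 1) (u := 1) (by rw [h1]; exact hw) (by rw [h1]; exact hv) h
  have h3 := (Vx_eq_iff (S := S) hth hirr hc).1 h2
  rw [inv_one, one_mul, one_mul] at h3
  exact w0_notMem hJ h3

theorem even_index [Nontrivial V] (x : C) : Even (WJ cs (Jset S ρ)).index := by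
  classical
  have hfin : FiniteDimensional k V := Module.Finite.of_finite
  have hW : Finite W := Finite.of_surjective (Δ.δ x) (Δ.exists_δ x)
  obtain ⟨c, -, hc⟩ := exists_apt (Δ := Δ) x
  have hwd : ∀ w w' : W, w⁻¹ * w' ∈ WJ cs (Jset S ρ) → (w * w0 cs)⁻¹ * (w' * w0 cs) ∈ WJ cs (Jset S ρ) := by
    intro w w' h
    have h1 := (Vx_eq_iff (S := S) hth hirr hc).2 h
    rw [← Vx_eq_iff (S := S) hth hirr hc]
    obtain ⟨v, hv, hv0⟩ := (Submodule.ne_bot_iff _).1 (Vx_ne_bot' (S := S) (ρ := ρ) (c (w * w0 cs)))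
    obtain ⟨y, hy, hne⟩ := exists_pair (S := S) hth hirr hβ (c := c (w * w0 cs)) (d := c w) (by
      change Δ.δ _ _ = _
      rw [hc, mul_inv_rev, mul_assoc, inv_mul_cancel, mul_one, F.w0_inv]) hv hv0
    exact eq_of_pair (S := S) hth hirr hβ hc (a := w') (u := w * w0 cs) (by rw [← h1]; exact hy) hv hne
  let f : W ⧸ WJ cs (Jset S ρ) → W ⧸ WJ cs (Jset S ρ) :=
    Quotient.lift (fun w => QuotientGroup.mk (w * w0 cs)) fun a b hab =>
      QuotientGroup.eq.2 (hwd a b (QuotientGroup.leftRel_apply.1 hab))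
  have hf : ∀ w : W, f (QuotientGroup.mk w) = QuotientGroup.mk (w * w0 cs) := fun _ => rfl
  have hff : ∀ z, f (f z) = z := by
    intro z
    induction z using QuotientGroup.induction_on with
    | H w => rw [hf, hf, mul_assoc, F.w0_mul_self, mul_one]
  have hfix : ∀ z, f z ≠ z := by
    intro z
    induction z using QuotientGroup.induction_on with
    | H w =>
      intro h
      rw [hf] at h
      have h1 := QuotientGroup.eq.1 h
      rw [mul_inv_rev, mul_assoc, inv_mul_cancel, mul_one] at h1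
      have h2 := inv_mem h1
      rw [inv_inv] at h2
      exact w0_notMem hJ h2
  have hfq : Finite (W ⧸ WJ cs (Jset S ρ)) := Quotient.finite _
  have : Fintype (W ⧸ WJ cs (Jset S ρ)) := Fintype.ofFinite _
  have h1 : ∑ _z : W ⧸ WJ cs (Jset S ρ), (1 : ZMod 2) = 0 :=
    Finset.sum_involution (fun z _ => f z) (fun _ _ => by decide) (fun z _ _ => hfix z) (fun _ _ => Finset.mem_univ _)
      (fun z _ => hff z)
  rw [Finset.sum_const, Finset.card_univ, nsmul_eq_mul, mul_one] at h1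
  rw [Subgroup.index, Nat.card_eq_fintype_card]
  exact (ZMod.natCast_eq_zero_iff_even).1 h1

variable (hcov : ∀ v : V, v ≠ 0 → β v v = 0 → ∃ x, v ∈ Vx S ρ x)

include hcov

/-- **The number of isotropic vectors.** -/
theorem card_iso [Nontrivial V] (x : C) : Nat.card {v : V // v ≠ 0 ∧ β v v = 0} =
    Nat.card {z : C // IsMinR cs (Jset S ρ) (Δ.δ x z)} * (Nat.card (Vx S ρ x) - 1) := by
  classical
  have hfinV : FiniteDimensional k V := Module.Finite.of_finite
  let Φ : (Σ z : {z : C // IsMinR cs (Jset S ρ) (Δ.δ x z)}, {v : Vx S ρ z.1 // v ≠ 0}) →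
      {v : V // v ≠ 0 ∧ β v v = 0} :=
    fun a => ⟨a.2.1.1, fun h => a.2.2 (Subtype.ext h), isotropic (S := S) hth hirr hβ hJ _ a.2.1.2 a.2.1.2⟩
  have hΦ : Function.Bijective Φ := by
    constructor
    · rintro ⟨⟨z, hz⟩, ⟨⟨v, hv⟩, hv0⟩⟩ ⟨⟨z', hz'⟩, ⟨⟨v', hv'⟩, hv0'⟩⟩ h
      have h1 : v = v' := congrArg Subtype.val h
      subst h1
      have hv1 : v ≠ 0 := fun h => hv0 (Subtype.ext h)
      have h2 : z = z' := gate_unique (S := S) hth hirr hz hz' (Vx_eq_of_mem (S := S) hth hirr hv hv' hv1)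
      subst h2
      rfl
    · rintro ⟨v, hv0, hvi⟩
      obtain ⟨y, hy⟩ := hcov v hv0 hvi
      obtain ⟨z, hz, hzy⟩ := exists_gate (S := S) hth hirr x y
      exact ⟨⟨⟨z, hz⟩, ⟨⟨v, by rw [hzy]; exact hy⟩, fun h => hv0 (congrArg Subtype.val h)⟩⟩, rfl⟩
  have h1 : ∀ (α : Type _) [AddCommGroup α] [Finite α], Nat.card {v : α // v ≠ 0} = Nat.card α - 1 := by
    intro α _ _
    have h2 : Nat.card {v : α // v ≠ 0} = ({0}ᶜ : Set α).ncard := by
      rw [← Nat.card_coe_set_eq]
      rfl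
    rw [h2, Set.ncard_compl, Set.ncard_singleton]
  rw [← Nat.card_congr (Equiv.ofBijective Φ hΦ), Nat.card_sigma]
  rw [Finset.sum_congr rfl (g := fun _ => Nat.card (Vx S ρ x) - 1), Finset.sum_const, Finset.card_univ,
    smul_eq_mul, ← Nat.card_eq_fintype_card]
  rintro ⟨z, hz⟩ -
  rw [← h1 (Vx S ρ x)]
  have h3 : Nat.card (Vx S ρ z) = Nat.card (Vx S ρ x) := by
    rw [Module.natCard_eq_pow_finrank (K := k) (V := Vx S ρ z),
      Module.natCard_eq_pow_finrank (K := k) (V := Vx S ρ x), finrank_Vx hth z x]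
  have h4 := h1 (Vx S ρ z)
  have h5 := h1 (Vx S ρ x)
  rw [h3] at h4
  exact h4.trans h5.symm

omit hth hirr hβ hJ hcov [Fintype C] [Fact p.Prime] [CharP k p] [Finite G] [Finite k] [Finite V] in
theorem card_gates_eq' [Finite C] [Fintype W] [DecidablePred fun w : W => IsMinR cs (Jset S ρ) w] (x : C) :
    Nat.card {z : C // IsMinR cs (Jset S ρ) (Δ.δ x z)} =
      ∑ w ∈ Finset.univ.filter (fun w : W => IsMinR cs (Jset S ρ) w), Nat.card {z : C // Δ.δ x z = w} := by
  classical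
  let Ψ : {z : C // IsMinR cs (Jset S ρ) (Δ.δ x z)} ≃
      Σ w : {w : W // IsMinR cs (Jset S ρ) w}, {z : C // Δ.δ x z = w.1} :=
    { toFun := fun z => ⟨⟨Δ.δ x z.1, z.2⟩, ⟨z.1, rfl⟩⟩
      invFun := fun a => ⟨a.2.1, by rw [a.2.2]; exact a.1.2⟩
      left_inv := fun _ => rfl
      right_inv := by
        rintro ⟨⟨w, hw⟩, ⟨z, hz⟩⟩
        change Δ.δ x z = w at hz
        subst hz
        rfl }
  rw [Nat.card_congr Ψ, Nat.card_sigma]
  rw [Finset.sum_subtype (Finset.univ.filter (fun w : W => IsMinR cs (Jset S ρ) w))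
    (p := fun w => IsMinR cs (Jset S ρ) w) (by intro w; simp)]

omit hth hirr hβ hJ hcov [Fintype C] [Fact p.Prime] [CharP k p] [Finite G] [Finite k] [Finite V] in
theorem card_minR_le' [Fintype W] [DecidablePred fun w : W => IsMinR cs (Jset S ρ) w] :
    (Finset.univ.filter (fun w : W => IsMinR cs (Jset S ρ) w)).card ≤ (WJ cs (Jset S ρ)).index := by
  classical
  rw [← Fintype.card_subtype, ← Nat.card_eq_fintype_card]
  refine Nat.card_le_card_of_injective
    (fun w : {w : W // IsMinR cs (Jset S ρ) w} => (QuotientGroup.mk w.1 : W ⧸ WJ cs (Jset S ρ))) ?_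
  rintro ⟨w, hw⟩ ⟨w', hw'⟩ h
  have h1 : w⁻¹ * w' ∈ WJ cs (Jset S ρ) := QuotientGroup.eq.1 h
  have h2 : w'⁻¹ * w ∈ WJ cs (Jset S ρ) := by
    have := inv_mem h1
    rwa [mul_inv_rev, inv_inv] at this
  have h3 := hw _ h1
  have h4 := hw' _ h2
  rw [mul_inv_cancel_left] at h3 h4
  have h5 : ℓ (w⁻¹ * w') = 0 := by omega
  have h6 := cs.length_eq_zero_iff.1 h5
  exact Subtype.ext (inv_mul_eq_one.1 h6)

end pairing

/-- the labels of the isotropic points -/
def LamSet (a m c : ℕ) : Finset ℕ :=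
  (Finset.range m).image (fun i => 2 * a * i) ∪ (Finset.range m).image (fun i => a * c + 2 * a * i)

theorem mem_LamSet {a m c x : ℕ} : x ∈ LamSet a m c ↔ ∃ i < m, x = 2 * a * i ∨ x = a * c + 2 * a * i := by
  unfold LamSet
  rw [Finset.mem_union, Finset.mem_image, Finset.mem_image]
  simp only [Finset.mem_range]
  constructor
  · rintro (⟨i, hi, rfl⟩ | ⟨i, hi, rfl⟩)
    · exact ⟨i, hi, Or.inl rfl⟩
    · exact ⟨i, hi, Or.inr rfl⟩
  · rintro ⟨i, hi, rfl | rfl⟩
    · exact Or.inl ⟨i, hi, rfl⟩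
    · exact Or.inr ⟨i, hi, rfl⟩

theorem LamSet_disj {a m c : ℕ} (ha : 0 < a) (hc : Odd c) :
    Disjoint ((Finset.range m).image (fun i => 2 * a * i)) ((Finset.range m).image (fun i => a * c + 2 * a * i)) := by
  rw [Finset.disjoint_left]
  intro x hx hx'
  obtain ⟨i, -, rfl⟩ := Finset.mem_image.1 hx
  obtain ⟨j, -, h⟩ := Finset.mem_image.1 hx'
  obtain ⟨t, rfl⟩ := hc
  have h1 : a * (2 * t + 1 + 2 * j) = a * (2 * i) := by rw [← mul_assoc, mul_comm a 2, ← h]; ring
  have h2 := Nat.eq_of_mul_eq_mul_left ha h1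
  omega

theorem card_LamSet {a m c : ℕ} (ha : 0 < a) (hc : Odd c) : (LamSet a m c).card = 2 * m := by
  unfold LamSet
  rw [Finset.card_union_of_disjoint (LamSet_disj ha hc), Finset.card_image_of_injective, Finset.card_image_of_injective,
    Finset.card_range]
  · ring
  · intro i j h
    have h1 : a * c + 2 * a * i = a * c + 2 * a * j := h
    exact Nat.eq_of_mul_eq_mul_left (by omega) (Nat.add_left_cancel h1)
  · intro i j h
    exact Nat.eq_of_mul_eq_mul_left (by omega) h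

theorem sum_LamSet {a m c p : ℕ} (ha : 0 < a) (hc : Odd c) : ∑ x ∈ LamSet a m c, p ^ x =
    (∑ i ∈ Finset.range m, (p ^ (2 * a)) ^ i) * (p ^ (a * c) + 1) := by
  unfold LamSet
  rw [Finset.sum_union (LamSet_disj ha hc), Finset.sum_image, Finset.sum_image, mul_add, mul_one, add_comm,
    Finset.sum_mul]
  · congr 1
    · refine Finset.sum_congr rfl fun i _ => ?_
      rw [← pow_mul, ← pow_add, add_comm]
    · exact Finset.sum_congr rfl fun i _ => by rw [pow_mul]
  · intro i _ j _ h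
    have h1 : a * c + 2 * a * i = a * c + 2 * a * j := h
    exact Nat.eq_of_mul_eq_mul_left (by omega) (Nat.add_left_cancel h1)
  · intro i _ j _ h
    exact Nat.eq_of_mul_eq_mul_left (by omega) h

/-- The labels: `n w` for `w` `J`-minimal. -/
structure LabU (cs : CoxeterSystem M W) (J : Set I) (n : W → ℕ) (a m c d : ℕ) : Prop where
  d_pos : 1 ≤ d
  half : ∃ m', (WJ cs J).index = 2 * m' ∧ m' * d = m
  mem : ∀ w, IsMinR cs J w → ∀ j < d, n w + 2 * a * j ∈ LamSet a m c
  inj : ∀ w w', IsMinR cs J w → IsMinR cs J w' → ∀ j < d, ∀ j' < d, n w + 2 * a * j = n w' + 2 * a * j' →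
    w = w' ∧ j = j'
  ex : ∀ x ∈ LamSet a m c, ∃ w, IsMinR cs J w ∧ ∃ j < d, n w + 2 * a * j = x

section

variable {β : V → Module.Dual k V}
variable [Fintype C] [Fact p.Prime] [CharP k p] (hth : Δ.Thick) [Finite G] [Finite k] [Finite V] [Nontrivial V]
  (hirr : ∀ L : Submodule k V, Ivt ρ ⊤ L → L = ⊥ ∨ L = ⊤) (hβ : Frm ρ β)
  (hJ : Jset S ρ ≠ Set.univ) (hcov : ∀ v : V, v ≠ 0 → β v v = 0 → ∃ x, v ∈ Vx S ρ x)

include hth hirr hβ hJ hcov

/-- **The labels.** -/
theorem labels {a m c : ℕ} (ha : 0 < a) (hk : Nat.card k = p ^ (2 * a)) (hc : Odd c)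
    (hdim : Module.finrank k V ≤ 2 * m + 1)
    (hN : Nat.card {v : V // v ≠ 0 ∧ β v v = 0} = ((p ^ (2 * a)) ^ m - 1) * (p ^ (a * c) + 1)) (x : C)
    {n : W → ℕ} (hn : ∀ w, Nat.card {z : C // Δ.δ x z = w} = p ^ n w) :
    LabU cs (Jset S ρ) n a m c (Module.finrank k (Vx S ρ x)) := by
  classical
  have hfinV : FiniteDimensional k V := Module.Finite.of_finite
  have hW : Finite W := Finite.of_surjective (Δ.δ x) (Δ.exists_δ x)
  letI := Fintype.ofFinite W
  have hp := (Fact.out : p.Prime)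
  set d := Module.finrank k (Vx S ρ x) with hd
  have hPc : Nat.card (Vx S ρ x) = (p ^ (2 * a)) ^ d := by
    rw [Module.natCard_eq_pow_finrank (K := k) (V := Vx S ρ x), hk]
  have hd1 : 1 ≤ d := by
    rw [Nat.one_le_iff_ne_zero]
    intro h0
    exact Vx_ne_bot' (S := S) (ρ := ρ) x (Submodule.finrank_eq_zero.1 h0)
  have hQ2 : 2 ≤ p ^ (2 * a) := by
    calc 2 ≤ p := hp.two_le
      _ = p ^ 1 := (pow_one p).symm
      _ ≤ _ := Nat.pow_le_pow_right hp.pos (by omega)
  set Q := p ^ (2 * a) with hQ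
  have h1 := card_iso (S := S) hth hirr hβ hJ hcov x
  rw [card_gates_eq' (S := S) x, hPc, hN] at h1
  have hgeom : ∀ r, (∑ j ∈ Finset.range r, Q ^ j) * (Q - 1) = Q ^ r - 1 := by
    intro r
    rw [Nat.geomSum_eq hQ2 r]
    exact Nat.div_mul_cancel (by simpa using Nat.sub_dvd_pow_sub_pow Q 1 r)
  set E := Finset.univ.filter (fun w : W => IsMinR cs (Jset S ρ) w) with hE
  have hsum : (∑ w ∈ E, p ^ n w) * (∑ j ∈ Finset.range d, Q ^ j) =
      (∑ i ∈ Finset.range m, Q ^ i) * (p ^ (a * c) + 1) := by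
    apply Nat.eq_of_mul_eq_mul_right (show 0 < Q - 1 by omega)
    calc (∑ w ∈ E, p ^ n w) * (∑ j ∈ Finset.range d, Q ^ j) * (Q - 1)
        = (∑ w ∈ E, p ^ n w) * ((∑ j ∈ Finset.range d, Q ^ j) * (Q - 1)) := by rw [mul_assoc]
      _ = (∑ w ∈ E, p ^ n w) * (Q ^ d - 1) := by rw [hgeom]
      _ = (∑ w ∈ E, Nat.card {z : C // Δ.δ x z = w}) * (Q ^ d - 1) := by
          congr 1
          exact Finset.sum_congr rfl fun w _ => (hn w).symm
      _ = (Q ^ m - 1) * (p ^ (a * c) + 1) := h1.symm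
      _ = ((∑ i ∈ Finset.range m, Q ^ i) * (Q - 1)) * (p ^ (a * c) + 1) := by rw [hgeom]
      _ = _ := by ring
  -- the multiset
  let P : Finset (W × ℕ) := E ×ˢ Finset.range d
  let f : W × ℕ → ℕ := fun b => n b.1 + 2 * a * b.2
  have hPsum : ∑ b ∈ P, p ^ f b = ∑ x ∈ LamSet a m c, p ^ x := by
    rw [sum_LamSet ha hc, ← hQ, ← hsum, Finset.sum_product, Finset.sum_mul]
    refine Finset.sum_congr rfl fun w _ => ?_
    rw [Finset.mul_sum]
    refine Finset.sum_congr rfl fun j _ => ?_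
    change p ^ (n w + 2 * a * j) = _
    rw [pow_add, pow_mul]
  have hidx := index_mul_le (S := S) hth hirr x
  rw [← hd] at hidx
  have hev := even_index (S := S) hth hirr hβ hJ x
  have hidx2 : (WJ cs (Jset S ρ)).index * d ≤ 2 * m := by
    obtain ⟨t, ht⟩ := hev
    have h2 : (WJ cs (Jset S ρ)).index * d = 2 * (t * d) := by rw [ht]; ring
    omega
  have hle : E.card ≤ (WJ cs (Jset S ρ)).index := card_minR_le' (S := S) (ρ := ρ)
  have hPcard : P.card = E.card * d := by rw [Finset.card_product, Finset.card_range]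
  have hkey := Cfsg.Agent.H794.HerDigit.key hp.two_le (LamSet a m c) P.card (P.val.map f)
    (by rw [Multiset.card_map]; rfl) (by
      rw [← hPsum, Multiset.map_map]
      rfl)
  rw [card_LamSet ha hc, Multiset.card_map] at hkey
  have hPle : P.card ≤ 2 * m := by
    rw [hPcard]
    exact (Nat.mul_le_mul_right d hle).trans hidx2
  have h2 := hkey.2 hPle
  have h3 : 2 * m ≤ P.card := hkey.1
  have hnd : (P.val.map f).Nodup := by rw [h2]; exact Finset.nodup _
  have hei := Multiset.inj_on_of_nodup_map hnd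
  have hmemE : ∀ w, w ∈ E ↔ IsMinR cs (Jset S ρ) w := fun w => by simp [hE]
  have hmemP : ∀ w j, IsMinR cs (Jset S ρ) w → j < d → (w, j) ∈ P.val := by
    intro w j hw hj
    exact Finset.mem_product.2 ⟨(hmemE w).2 hw, Finset.mem_range.2 hj⟩
  refine ⟨hd1, ?_, ?_, ?_, ?_⟩
  · rw [hPcard] at h3
    have h4 := Nat.mul_le_mul_right d hle
    obtain ⟨t, ht⟩ := hev
    refine ⟨t, by omega, ?_⟩
    have h5 : (WJ cs (Jset S ρ)).index * d = 2 * (t * d) := by rw [ht]; ring
    omega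
  · intro w hw j hj
    have h4 : f (w, j) ∈ P.val.map f := Multiset.mem_map_of_mem f (hmemP w j hw hj)
    rw [h2] at h4
    exact h4
  · intro w w' hw hw' j hj j' hj' h
    have h4 := hei _ (hmemP w j hw hj) _ (hmemP w' j' hw' hj') h
    exact ⟨congrArg Prod.fst h4, congrArg Prod.snd h4⟩
  · intro x hx
    have h4 : x ∈ P.val.map f := by rw [h2]; exact hx
    obtain ⟨⟨w, j⟩, hb, rfl⟩ := Multiset.mem_map.1 h4
    have h5 := Finset.mem_product.1 (show (w, j) ∈ P from hb)
    exact ⟨w, (hmemE w).1 h5.1, j, Finset.mem_range.1 h5.2, rfl⟩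

end

end Cfsg.Agent.H985.UT
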