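import Cfsg.Agent.H985.UT.Core

/-!
# Rank one (helper985, S2196 part B3)

* `opp_conj` : the stabiliser of two opposite chambers is conjugate into `B ∩ N`;
* `hasOne_of_split` : a central extension of a group with a split (B,N)-pair of rank one, `B ∩ N` cyclic;
* `one_sz`, `one_ree`; `hasOne_of_rgd`.
-/

set_option autoImplicit false
set_option linter.unusedSectionVars false
set_option linter.style.haveILetI false

namespace Cfsg.Agent.H985.UT

open Cfsg Cfsg.Agent.H50.Her Module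
open Cfsg.Agent.Tits.Core Cfsg.Agent.Tits.Core.Bldg Cfsg.Agent.Tits.Exchange Cfsg.Agent.Tits
open Cfsg.Agent.FixBN Cfsg.Agent.FixBN.Cox Cfsg.Agent.Omega.CR Cfsg.Agent.Omega.CR.Bl
open Cfsg.Agent.LieRecognition.BNCox Cfsg.Agent.H905.DC
open Subgroup CoxeterSystem Cfsg.Agent.ChevalleyStructure.CoxeterGeom Cfsg.Agent.Tits.Roots
  Cfsg.Agent.Tits.RootComb Cfsg.Agent.Nodes.Comb Cfsg.Agent.Nodes.Reps Cfsg.Agent.Nodes.BNOf
  Cfsg.Agent.Omega.ML.LieRow Cfsg.Agent.Tits.OfBN Cfsg.Agent.LieExceptional.BNPairCore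

universe u v

/-- the stabiliser of two opposite chambers -/
theorem opp_conj {K : Type*} [Group K] [Finite K] {P : Cfsg.BNPair K} {p : ℕ} {U : Subgroup K}
    [hN : ((P.B ⊓ P.N).subgroupOf P.N).Normal] {I : Type*} {M : CoxeterMatrix I} (e : I ≃ P.S)
    (cs : CoxeterSystem M (WP P))
    (hcs : ∀ i, cs.simple i = QuotientGroup.mk (⟨(e i : K), P.subset (e i).2⟩ : P.N)) (hP : Split P p U)
    {x y : K ⧸ P.B} (hxy : (bldg P e cs hcs).Opp x y) :
    ∃ c : K, ∀ g : K, g • x = x → g • y = y → c⁻¹ * g * c ∈ P.B ⊓ P.N := by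
  induction x using QuotientGroup.induction_on with
  | _ a =>
  induction y using QuotientGroup.induction_on with
  | _ b =>
  obtain ⟨m, hm⟩ := exists_mem_C P (a⁻¹ * b)
  obtain ⟨b₁, hb₁, b₂, hb₂, h2⟩ := mem_C.1 hm
  refine ⟨a * b₁, fun g hgx hgy => ?_⟩
  have hgx' : a⁻¹ * g * a ∈ P.B := OfBN.smul_mk_eq.1 hgx
  have hgy' : b⁻¹ * g * b ∈ P.B := OfBN.smul_mk_eq.1 hgy
  have h3 : (a * b₁)⁻¹ * g * (a * b₁) ∈ P.B := by
    have h4 : (a * b₁)⁻¹ * g * (a * b₁) = b₁⁻¹ * (a⁻¹ * g * a) * b₁ := by group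
    rw [h4]
    exact mul_mem (mul_mem (inv_mem hb₁) hgx') hb₁
  obtain ⟨u, hu, t, ht, h4⟩ := hP.cover' h3
  have h5 : b = a * b₁ * (m : K) * b₂ := by
    have h6 : b = a * (a⁻¹ * b) := by group
    rw [h6, h2]; group
  have h6 : (m : K)⁻¹ * ((a * b₁)⁻¹ * g * (a * b₁)) * m ∈ P.B := by
    have h7 : (m : K)⁻¹ * ((a * b₁)⁻¹ * g * (a * b₁)) * m = b₂ * (b⁻¹ * g * b) * b₂⁻¹ := by
      rw [h5]; group
    rw [h7]
    exact mul_mem (mul_mem hb₂ hgy') (inv_mem hb₂)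
  have h7 : (m : K)⁻¹ * t * m ∈ P.B := by
    have h8 := P.conj_mem (m : K)⁻¹ (inv_mem m.2) t ht
    rw [inv_inv] at h8
    exact h8
  have h8 : (m : K)⁻¹ * u * m ∈ P.B := by
    have h9 : (m : K)⁻¹ * u * m = ((m : K)⁻¹ * ((a * b₁)⁻¹ * g * (a * b₁)) * m) * ((m : K)⁻¹ * t * m)⁻¹ := by
      rw [h4]; group
    rw [h9]
    exact mul_mem h6 (inv_mem h7)
  have h9 : u = 1 := by
    refine OfBN.free e cs hcs hP (x := QuotientGroup.mk 1) (y := QuotientGroup.mk (m : K)) ?_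
      ((OfBN.mem_UU hP).2 ?_) (OfBN.smul_mk_eq.2 h8)
    · have h10 : (bldg P e cs hcs).δ (QuotientGroup.mk a) (QuotientGroup.mk b) = w0 cs := hxy
      change (bldg P e cs hcs).δ (QuotientGroup.mk 1) (QuotientGroup.mk (m : K)) = w0 cs
      rw [← h10, bldg_δ_mk, bldg_δ_mk, wt_of_mem _ hm]
      apply wt_of_mem
      exact mem_C.2 ⟨1, one_mem _, 1, one_mem _, by group⟩
    · have h11 : (1 : K)⁻¹ * u * 1 = u := by group
      rw [h11]
      exact hu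
  rw [h4, h9, one_mul]
  exact ht

/-- **rank one groups with a cyclic torus and their central extensions** -/
theorem hasOne_of_split {p : ℕ} [Fact p.Prime] {Y : Type u} {Y' : Type v} [Group Y] [Finite Y] [Group Y']
    (f : Y →* Y') (hf : f.ker = Subgroup.center Y) (hpf : (Nat.card f.ker).Coprime p)
    (hs : Function.Surjective f) (P : Cfsg.BNPair Y') (U : Subgroup Y') {s : Y'} (hS : P.S = {s})
    (h : Split P p U) {t₀ : Y'} (ht₀ : ∀ t ∈ P.B ⊓ P.N, ∃ n : ℤ, t = t₀ ^ n) : HasOne.{u, v} p Y := by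
  have hfin : Finite Y' := Finite.of_surjective f hs
  obtain ⟨M₀, hM₀⟩ := Labels.exists_bnType P
  have hu : Unique P.S := by
    rw [hS]
    infer_instance
  let φ : P.S ≃ Fin 1 := Equiv.ofUnique _ _
  obtain ⟨hN, cs, hcs⟩ := Labels.bnType_reindex hM₀ φ
  set e : Fin 1 ≃ P.S := φ.symm.trans (Equiv.refl P.S) with he
  have S := OfBN.sys e cs hcs h
  have hth := Cfsg.Agent.Tits.OfBN.thick P e cs hcs
  refine ⟨_, WP P, Y' ⧸ P.B, inferInstance, cs, inferInstance, Fintype.ofFinite _, bldg P e cs hcs,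
    MulAction.compHom (Y' ⧸ P.B) f, hth, ⟨sysLift S f hf.le hpf hs⟩, ?_⟩
  intro x y hxy g g' hg hgy hg' hgy'
  obtain ⟨c, hc⟩ := opp_conj e cs hcs h hxy
  obtain ⟨i, hi⟩ := ht₀ _ (hc (f g) hg hgy)
  obtain ⟨j, hj⟩ := ht₀ _ (hc (f g') hg' hgy')
  obtain ⟨z, hz⟩ := hs (c * t₀ * c⁻¹)
  have key : ∀ (g : Y) (i : ℤ), c⁻¹ * f g * c = t₀ ^ i → ∃ w ∈ Subgroup.center Y, g = z ^ i * w := by
    intro g i hi
    refine ⟨(z ^ i)⁻¹ * g, ?_, by group⟩
    rw [← hf, MonoidHom.mem_ker, map_mul, map_inv, map_zpow, hz, conj_zpow, ← hi]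
    group
  obtain ⟨w, hw, rfl⟩ := key g i hi
  obtain ⟨w', hw', rfl⟩ := key g' j hj
  have h1 := Subgroup.mem_center_iff.1 hw
  have h2 := Subgroup.mem_center_iff.1 hw'
  calc z ^ i * w * (z ^ j * w') = z ^ i * (w * z ^ j) * w' := by group
    _ = z ^ i * z ^ j * (w * w') := by rw [← h1]; group
    _ = z ^ j * z ^ i * (w' * w) := by rw [h2, ← zpow_add, ← zpow_add, add_comm]
    _ = z ^ j * (z ^ i * w') * w := by group
    _ = z ^ j * w' * (z ^ i * w) := by rw [h2]; group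

/-- the image of the multiplicative group is cyclic -/
theorem exists_gen' {F G : Type*} [Field F] [Finite F] [Group G] {d : Fˣ → G} (hmul : ∀ a b, d a * d b = d (a * b)) :
    ∃ t₀ : G, ∀ a : Fˣ, ∃ n : ℤ, d a = t₀ ^ n := by
  let D : Fˣ →* G := MonoidHom.mk' d (fun a b => (hmul a b).symm)
  obtain ⟨g, hg⟩ := IsCyclic.exists_generator (α := Fˣ)
  refine ⟨D g, fun a => ?_⟩
  obtain ⟨n, rfl⟩ := Subgroup.mem_zpowers_iff.1 (hg a)
  exact ⟨n, map_zpow D g n⟩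

theorem one_sz {Y : Type u} {Y' : Type v} [Group Y] [Finite Y] [Group Y'] (h : Lie.IsoSuzuki Y')
    (f : Y →* Y') (hf : f.ker = Subgroup.center Y) (hpf : (Nat.card f.ker).Coprime 2)
    (hs : Function.Surjective f) : HasOne.{u, 0} 2 Y := by
  have : Fact (Nat.Prime 2) := ⟨Nat.prime_two⟩
  obtain ⟨K, i1, i2, m, hm, hK, ⟨e⟩⟩ := h
  have H := Cfsg.Agent.LieRecognition.SzMatrix.good hK
  have hsimple : IsSimpleGroup ↥(Cfsg.Lie.Sz K (2 ^ (m + 1))) := Cfsg.Agent.S1162.result hm hK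
  let g : Y →* ↥(Cfsg.Lie.Sz K (2 ^ (m + 1))) := e.toMonoidHom.comp f
  have hg : g.ker = f.ker := by
    ext x
    rw [MonoidHom.mem_ker, MonoidHom.mem_ker]
    exact map_eq_one_iff e e.injective
  obtain ⟨t₀, ht₀⟩ := exists_gen' (d := fun a => H.d a) (fun a b => H.d_mul a b)
  refine hasOne_of_split g (by rw [hg, hf]) (by rw [hg]; exact hpf) (e.surjective.comp hs)
    (Cfsg.Agent.Omega.ML.LieRow.SzSplit.bnPair H) H.unip (s := H.w) rfl
    (Cfsg.Agent.Omega.ML.LieRow.SzSplit.split hm hK H hsimple) (t₀ := t₀) ?_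
  intro t ht
  obtain ⟨a, rfl⟩ := Cfsg.Agent.Omega.ML.LieRow.SzSplit.mem_inf H ht.1 ht.2
  exact ht₀ a

theorem one_ree {Y : Type u} {Y' : Type v} [Group Y] [Finite Y] [Group Y'] (h : Lie.IsoRee Y')
    (f : Y →* Y') (hf : f.ker = Subgroup.center Y) (hpf : (Nat.card f.ker).Coprime 3)
    (hs : Function.Surjective f) : HasOne.{u, 0} 3 Y := by
  have : Fact (Nat.Prime 3) := ⟨Nat.prime_three⟩
  obtain ⟨K, i1, i2, m, hm, hK, ⟨e⟩⟩ := h
  obtain ⟨U, h, n, D⟩ := Cfsg.Agent.ChevalleyStructure.Ree.Data.exists_data hK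
  let g : Y →* ↥(Cfsg.Lie.twistedG2 K (3 ^ m)) := e.toMonoidHom.comp f
  have hg : g.ker = f.ker := by
    ext x
    rw [MonoidHom.mem_ker, MonoidHom.mem_ker]
    exact map_eq_one_iff e e.injective
  obtain ⟨t₀, ht₀⟩ := exists_gen' (d := h) (fun a b => (D.h_mul a b).symm)
  refine hasOne_of_split g (by rw [hg, hf]) (by rw [hg]; exact hpf) (e.surjective.comp hs)
    (ReeSplit.bnPair D) (Cfsg.Agent.LieRecognition.ReeSylowThree.uSub D) (s := n) rfl
    (ReeSplit.split hK D) (t₀ := t₀) ?_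
  intro t ht
  obtain ⟨a, rfl⟩ := ReeSplit.mem_inf D ht.1 ht.2
  exact ht₀ a

end Cfsg.Agent.H985.UT
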