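import Cfsg.Agent.H985.UT.One

/-!
# Rank one: `PSL₂`, `PSU₃` (helper985, S2196 part B3)

* `hasOne_of_rgd` : a root group datum of rank one with cyclic torus;
* `one_psl`, `one_psu`.
-/

set_option autoImplicit false
set_option linter.unusedSectionVars false
set_option linter.style.haveILetI false

namespace Cfsg.Agent.H985.UT

open Cfsg Cfsg.Agent.H50.Her Module
open Cfsg.Agent.Tits.Core Cfsg.Agent.Tits.Core.Bldg Cfsg.Agent.Tits.Exchange Cfsg.Agent.Tits
open Cfsg.Agent.FixBN Cfsg.Agent.FixBN.Cox Cfsg.Agent.Omega.CR Cfsg.Agent.Omega.CR.Bl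
open Cfsg.Agent.LieRecognition.BNCox Cfsg.Agent.H905.DC
open CoxeterSystem Cfsg.Agent.ChevalleyStructure.CoxeterGeom Cfsg.Agent.Tits.Roots
  Cfsg.Agent.Tits.RootComb Cfsg.Agent.Nodes.Comb Cfsg.Agent.Nodes.Reps Cfsg.Agent.Nodes.BNOf
  Cfsg.Agent.Omega.ML.LieRow Cfsg.Agent.Tits.OfBN Cfsg.Agent.LieExceptional.BNPairCore

universe u v

/-- **a root group datum of rank one with cyclic torus** -/
theorem hasOne_of_rgd {p : ℕ} [Fact p.Prime] {Y : Type u} {Y' : Type v} [Group Y] [Finite Y] [Group Y']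
    [IsSimpleGroup Y'] (f : Y →* Y') (hf : f.ker = Subgroup.center Y) (hpf : (Nat.card f.ker).Coprime p)
    (hs : Function.Surjective f) {W : Type*} [Group W] [Finite W] {M : CoxeterMatrix (Fin 1)}
    {cs : CoxeterSystem M W} {A : Fin 1 → Fin 1 → ℤ} {h : IsCartan M A}
    {Tor : Subgroup Y'} {n : Fin 1 → Y'} {X : (Fin 1 → ℤ) → Subgroup Y'} (R : RGD cs h p Tor n X)
    (hG1 : Nodes.RGDLib.G1 cs h X = ⊤) {t₀ : Y'} (ht₀ : ∀ t ∈ Tor, ∃ n : ℤ, t = t₀ ^ n) : HasOne.{u, v} p Y := by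
  have hgen : RGD.B cs h Tor X ⊔ NN cs R.nsys = ⊤ := by
    rw [eq_top_iff, ← hG1]
    exact Nodes.RGDLib.rgd_G1_le R
  have hfin : Finite Y' := Finite.of_surjective f hs
  have hne : (R.bnPair hgen).S.Nonempty := ⟨n 0, 0, rfl⟩
  have hP := SplitRGD.split_of_rgd (Fact.out) R hgen
    (Cfsg.Agent.Tits.OfBN.normalCore_eq_bot (R.bnPair hgen) hne)
  refine hasOne_of_split f hf hpf hs (R.bnPair hgen) _ (s := n 0) ?_ hP (t₀ := t₀) ?_
  · change Set.range n = {n 0}
    ext y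
    constructor
    · rintro ⟨i, rfl⟩
      rw [Subsingleton.elim i 0]
      rfl
    · rintro rfl
      exact ⟨0, rfl⟩
  · intro t ht
    apply ht₀
    rw [← R.B_inf_NN]
    exact ht

/-- a group with a homomorphism to a cyclic group -/
theorem gen_of_hom {T A K : Type*} [Group T] [Group A] [IsCyclic A] [Group K] (χ : T →* A) (φ : T →* K)
    (hφ : ∀ t, χ t = 1 → φ t = 1) : ∃ t₀ : K, ∀ t, ∃ n : ℤ, φ t = t₀ ^ n := by
  obtain ⟨⟨g, s, hs⟩, hg⟩ := IsCyclic.exists_generator (α := χ.range)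
  refine ⟨φ s, fun t => ?_⟩
  obtain ⟨n, hn⟩ := Subgroup.mem_zpowers_iff.1 (hg ⟨χ t, t, rfl⟩)
  have h1 : χ s ^ n = χ t := by rw [hs]; exact congrArg Subtype.val hn
  refine ⟨n, ?_⟩
  have h2 := hφ (t * (s ^ n)⁻¹) (by rw [map_mul, map_inv, map_zpow, h1, mul_inv_cancel])
  rw [map_mul, map_inv, map_zpow, mul_inv_eq_one] at h2
  exact h2

/-! ### `PSL₂` -/

section PSL

open Cfsg.Agent.Nodes Cfsg.Agent.Nodes.RGDTypeA Matrix

theorem t_apply {F : Type*} [Field F] (g : T (Fin 2) F) : g.1.1 0 1 = 0 ∧ g.1.1 1 0 = 0 ∧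
    g.1.1 0 0 * g.1.1 1 1 = 1 := by
  have h : Mono 1 g.1 := g.2
  have h01 : g.1.1 0 1 = 0 := by
    by_contra hne
    exact absurd (h 0 1 hne) (by decide)
  have h10 : g.1.1 1 0 = 0 := by
    by_contra hne
    exact absurd (h 1 0 hne) (by decide)
  refine ⟨h01, h10, ?_⟩
  have h1 := g.1.2
  rw [Matrix.det_fin_two, h01, zero_mul, sub_zero] at h1
  exact h1

/-- the first diagonal entry -/
def chiT (F : Type*) [Field F] : T (Fin 2) F →* F where
  toFun g := g.1.1 0 0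
  map_one' := rfl
  map_mul' g h := by
    change (g.1.1 * h.1.1) 0 0 = _
    rw [Matrix.mul_apply, Fin.sum_univ_two, (t_apply g).1, zero_mul, add_zero]

theorem one_psl {p : ℕ} [Fact p.Prime] {F : Type v} [Field F] [Finite F] [CharP F p] {Y : Type u} [Group Y] [Finite Y]
    [IsSimpleGroup (Matrix.ProjectiveSpecialLinearGroup (Fin 2) F)]
    (f : Y →* Matrix.ProjectiveSpecialLinearGroup (Fin 2) F) (hf : f.ker = Subgroup.center Y)
    (hpf : (Nat.card f.ker).Coprime p) (hs : Function.Surjective f) : HasOne.{u, v} p Y := by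
  have : Finite (cA 1).Group := RootsA.finite_W (cA 1).toCoxeterSystem (RootsA.isCartan 1)
  obtain ⟨t₀, ht₀⟩ := gen_of_hom (MonoidHom.toHomUnits (chiT F)) ((pr 1 F).comp (T (Fin 2) F).subtype) (by
    intro t ht
    have h1 : t.1.1 0 0 = 1 := congrArg Units.val ht
    obtain ⟨h01, h10, h2⟩ := t_apply t
    have h3 : t.1 = 1 := by
      apply Subtype.ext
      ext i j
      fin_cases i <;> fin_cases j
      · exact h1
      · exact h01
      · exact h10
      · change t.1.1 1 1 = 1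
        rw [h1, one_mul] at h2
        exact h2
    rw [MonoidHom.comp_apply, Subgroup.coe_subtype, h3, map_one])
  refine hasOne_of_rgd f hf hpf hs (rgd_psl (F := F) (n := 1) (p := p) (cA 1).toCoxeterSystem (RootsA.isCartan 1))
    (G1_psl_eq_top _ _) (t₀ := t₀) ?_
  rintro _ ⟨t, ht, rfl⟩
  exact ht₀ ⟨t, ht⟩

end PSL

/-! ### `PSU₃` -/

section PSU

open Cfsg.Agent.Nodes Cfsg.Agent.Nodes.WittAll Cfsg.Agent.Nodes.WittU Cfsg.Agent.Nodes.WittInst
  Cfsg.Agent.Nodes.WittRoot Cfsg.Agent.Nodes.TypeC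
  Cfsg.Agent.TitsThree Cfsg.Agent.TitsThree.Siegel Cfsg.Agent.TitsThree.SiegelGen
  Cfsg.Agent.TitsThree.WittFrame Cfsg.Agent.TitsThree.WBridge Cfsg.Agent.TitsThree.WittWeyl
  Cfsg.Agent.TitsThree.FrameCN Cfsg.Agent.TitsThree.LineBorel Cfsg.Agent.H742
open Cfsg.Agent.Nodes.WittRGD (Tor mem_Tor nn nn_mem_sup rg_sr rg_neg_sr)
open Cfsg.Agent.LieClassical.HermBasic Cfsg.Agent.TitsThree.KSideU

variable {F : Type*} [Field F] {V : Type*} [AddCommGroup V] [Module F V] {H : HForm F V}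
  {Fr : Frame H (Fin 1)} {K : Type*} [Group K] (M : Model Fr K)

/-- the torus of a frame of rank one with a one-dimensional anisotropic part -/
theorem torus_gen [Finite F] {p : ℕ} (hA : AmbT Fr p M.I) (hZ : Subgroup.center K = ⊥) (hsurj : Function.Surjective M.φ)
    {d : V} (hd : d ∈ Fr.V0) (hdd : H.h d d ≠ 0) (hV0 : ∀ w ∈ Fr.V0, ∃ c : F, w = c • d) :
    ∃ t₀ : K, ∀ t ∈ WittModel.T M, ∃ n : ℤ, t = t₀ ^ n := by
  classical
  have hd0 : d ≠ 0 := by
    rintro rfl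
    apply hdd
    rw [H.zero_left]
  set b₁ := Fr.b (0, true) with hb₁
  set b₂ := Fr.b (0, false) with hb₂
  have hb12 : H.h b₁ b₂ ≠ 0 := by
    rw [hb₁, hb₂, Fr.hb, if_pos ⟨rfl, by decide⟩, if_pos rfl]
    exact one_ne_zero
  have heig : ∀ g : Tor Fr M.I, (∃ l : F, g.1 b₁ = l • b₁) ∧ (∃ l : F, g.1 b₂ = l • b₂) ∧ ∃ l : F, g.1 d = l • d := by
    rintro ⟨g, hg⟩
    obtain ⟨l, -, h1⟩ := hg.2 (0, true)
    obtain ⟨l', -, h2⟩ := hg.2 (0, false)
    exact ⟨⟨l, h1⟩, ⟨l', h2⟩, hV0 _ (hA.map_V0 hg.1 hg.2 (ρ := id) (fun _ => rfl) hd)⟩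
  let χ₁ : Tor Fr M.I →* F :=
    { toFun := fun g => H.h (g.1 b₁) b₂ * (H.h b₁ b₂)⁻¹
      map_one' := by
        change H.h b₁ b₂ * (H.h b₁ b₂)⁻¹ = 1
        exact mul_inv_cancel₀ hb12
      map_mul' := fun g k => by
        obtain ⟨l, hl⟩ := (heig g).1
        obtain ⟨l', hl'⟩ := (heig k).1
        have h1 : (g * k).1 b₁ = (l' * l) • b₁ := by
          change g.1 (k.1 b₁) = _
          rw [hl', map_smul, hl, smul_smul]
        rw [h1, hl, hl', H.smul_left, H.smul_left, H.smul_left]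
        field_simp }
  let χ₂ : Tor Fr M.I →* F :=
    { toFun := fun g => H.h (g.1 d) d * (H.h d d)⁻¹
      map_one' := by
        change H.h d d * (H.h d d)⁻¹ = 1
        exact mul_inv_cancel₀ hdd
      map_mul' := fun g k => by
        obtain ⟨l, hl⟩ := (heig g).2.2
        obtain ⟨l', hl'⟩ := (heig k).2.2
        have h1 : (g * k).1 d = (l' * l) • d := by
          change g.1 (k.1 d) = _
          rw [hl', map_smul, hl, smul_smul]
        rw [h1, hl, hl', H.smul_left, H.smul_left, H.smul_left]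
        field_simp }
  have hχ₁ : ∀ g l, g.1 b₁ = l • b₁ → χ₁ g = l := by
    intro g l h
    change H.h (g.1 b₁) b₂ * (H.h b₁ b₂)⁻¹ = l
    rw [h, H.smul_left, mul_inv_cancel_right₀ hb12]
  have hχ₂ : ∀ g l, g.1 d = l • d → χ₂ g = l := by
    intro g l h
    change H.h (g.1 d) d * (H.h d d)⁻¹ = l
    rw [h, H.smul_left, mul_inv_cancel_right₀ hdd]
  let χ : Tor Fr M.I →* Fˣ := (MonoidHom.toHomUnits χ₁) * (MonoidHom.toHomUnits χ₂)⁻¹
  have hχ : ∀ g, χ g = 1 → χ₁ g = χ₂ g := by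
    intro g hg
    have h1 : MonoidHom.toHomUnits χ₁ g * (MonoidHom.toHomUnits χ₂ g)⁻¹ = 1 := hg
    rw [mul_inv_eq_one] at h1
    exact congrArg Units.val h1
  let φ : Tor Fr M.I →* K := M.φ.comp (Subgroup.inclusion (fun g hg => hg.1 : Tor Fr M.I ≤ M.I))
  obtain ⟨t₀, ht₀⟩ := gen_of_hom χ φ (by
    intro g hg
    obtain ⟨⟨l₁, e₁⟩, ⟨l₂, e₂⟩, ⟨c, e₃⟩⟩ := heig g
    have h1 := hχ g hg
    rw [hχ₁ g l₁ e₁, hχ₂ g c e₃] at h1
    subst h1
    have hiso := hA.iso g.1 g.2.1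
    have h2 := hiso b₁ b₂
    rw [e₁, e₂, H.smul_left, H.smul_right] at h2
    have h3 := hiso d d
    rw [e₃, H.smul_left, H.smul_right] at h3
    have h4 : l₁ * H.σ l₂ = 1 := by
      apply mul_right_cancel₀ hb12
      rw [one_mul, mul_assoc, h2]
    have h5 : l₁ * H.σ l₁ = 1 := by
      apply mul_right_cancel₀ hdd
      rw [one_mul, mul_assoc, h3]
    have hl1 : l₁ ≠ 0 := by
      rintro rfl
      rw [zero_mul] at h4
      exact zero_ne_one h4
    have h6 : l₂ = l₁ := by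
      apply H.σ.injective
      exact mul_left_cancel₀ hl1 (h4.trans h5.symm)
    rw [h6] at e₂
    -- `g` is a scalar
    let z : V ≃ₗ[F] V := LinearEquiv.smulOfUnit (Units.mk0 l₁ hl1)
    have hz : ∀ v, z v = l₁ • v := fun v => rfl
    have hgz : z⁻¹ * g.1 = 1 := by
      refine H716.RGDAb.eq_one_of_fix hA.V0 (fun x => ?_) fun w hw => ?_
      · change z.symm (g.1 (Fr.b x)) = Fr.b x
        rw [LinearEquiv.symm_apply_eq, hz]
        obtain ⟨i, s⟩ := x
        obtain rfl : i = 0 := Subsingleton.elim _ _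
        cases s
        · exact e₂
        · exact e₁
      · change z.symm (g.1 w) = w
        rw [LinearEquiv.symm_apply_eq, hz]
        obtain ⟨r, rfl⟩ := hV0 w hw
        rw [map_smul, e₃, smul_comm]
    have hgz' : g.1 = z := (inv_mul_eq_one.1 hgz).symm
    have hc : φ g ∈ Subgroup.center K := by
      rw [Subgroup.mem_center_iff]
      intro k
      obtain ⟨k, rfl⟩ := hsurj k
      change M.φ k * M.φ _ = M.φ _ * M.φ k
      rw [← map_mul, ← map_mul]
      congr 1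
      apply Subtype.ext
      change k.1 * g.1 = g.1 * k.1
      rw [hgz']
      ext v
      change k.1 (z v) = z (k.1 v)
      rw [hz, hz, map_smul]
    rw [hZ] at hc
    exact Subgroup.mem_bot.1 hc)
  refine ⟨t₀, ?_⟩
  rintro _ ⟨g, hg, rfl⟩
  exact ht₀ ⟨g.1, Subgroup.mem_subgroupOf.1 hg⟩

theorem one_psu {p : ℕ} [Fact p.Prime] {F : Type v} [Field F] [Fintype F] [CharP F p] {q : ℕ}
    (hF : Fintype.card F = q ^ 2) {Y : Type u} [Group Y] [Finite Y] [IsSimpleGroup (PSU 3 F q)]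
    (hZ : Subgroup.center (PSU 3 F q) = ⊥)
    (f : Y →* PSU 3 F q) (hf : f.ker = Subgroup.center Y)
    (hpf : (Nat.card f.ker).Coprime p) (hs : Function.Surjective f) : HasOne.{u, v} p Y := by
  obtain ⟨W, d, hd, hW⟩ := exists_wframe_odd hF (m := 1) (rfl : 2 * 1 + 1 = 2 * 1 + 1)
  obtain ⟨p0, hp0, -⟩ := exists_adm hF W
  have hA := AmbT.of_amb (amb_U hF W) p
  have hdV : d ∈ (toFrame W).V0 := by
    change d ∈ W.V0
    rw [hW]
    exact Submodule.mem_span_singleton_self d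
  have hsp : ∀ w ∈ (toFrame W).V0, ∃ c : F, w = c • d := by
    intro w hw
    change w ∈ W.V0 at hw
    rw [hW] at hw
    obtain ⟨c, hc⟩ := Submodule.mem_span_singleton.1 hw
    exact ⟨c, hc.symm⟩
  have hsurj : Function.Surjective (KInstU.model hF le_rfl W).φ := by
    rw [← MonoidHom.range_eq_top]
    exact (KInstU.model hF le_rfl W).gen 0 _ (fun i j hij => by omega) (fun p => ⟨⟨_, rfl⟩, ⟨_, rfl⟩⟩)
  obtain ⟨t₀, ht₀⟩ := torus_gen (KInstU.model hF le_rfl W) hA hZ hsurj hdV (by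
    change hermForm (2 * 1 + 1) F q d d ≠ 0
    rw [hd]
    exact one_ne_zero) hsp
  have : Finite (CoxeterMatrix.B 1).Group := TypeC.finite_W (CoxeterMatrix.B 1).toCoxeterSystem
  exact hasOne_of_rgd f hf hpf hs (rgdC_model (KInstU.model hF le_rfl W) hA hp0 (CoxeterMatrix.B 1).toCoxeterSystem)
    (WittModel.G1_eq_top _ (by norm_num) _) ht₀

end PSU

end Cfsg.Agent.H985.UT
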