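import Mathlib
import Cfsg.Agent.H948.UProd

/-!
# The `r`-part of `|SU_n(q)|`, `r` prime to `q` (helper985)

`rpart_le` : `r ^ v_r(∏_{i=2}^n (q^i - (-1)^i)) ≤ q ^ (2 (n - 1))`, `q ≥ 3`, `n ≥ 3`, `r ∤ q`.
-/

set_option autoImplicit false

namespace Cfsg.Agent.H985.UT.RPart

open Cfsg.Agent.H948.UProd (ph)

variable {r q : ℕ}

theorem pow_val_le (hr : r.Prime) {m : ℕ} (hm : 0 < m) : r ^ padicValNat r m ≤ m := by
  have := Fact.mk hr
  exact Nat.le_of_dvd hm (pow_padicValNat_dvd)

theorem pow_val_factorial (hr : r.Prime) (m : ℕ) : r ^ padicValNat r (m.factorial) ≤ 2 ^ (m - 1) := by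
  have := Fact.mk hr
  have h1 := sub_one_mul_padicValNat_factorial (p := r) m
  have h2 : r ≤ 2 ^ (r - 1) := by
    have h3 := Nat.lt_two_pow_self (n := r - 1)
    have := hr.two_le
    omega
  calc r ^ padicValNat r (m.factorial) ≤ (2 ^ (r - 1)) ^ padicValNat r (m.factorial) := Nat.pow_le_pow_left h2 _
    _ = 2 ^ ((r - 1) * padicValNat r (m.factorial)) := by rw [← pow_mul]
    _ ≤ 2 ^ (m - 1) := by
        refine Nat.pow_le_pow_right (by norm_num) ?_
        rw [h1]
        rcases Nat.eq_zero_or_pos m with rfl | hm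
        · simp
        · have h4 : 0 < (Nat.digits r m).sum := by
            rw [Nat.pos_iff_ne_zero]
            intro h0
            have h5 : m ≠ 0 := by omega
            have h6 := Nat.getLast_digit_ne_zero r h5
            have h7 : (Nat.digits r m).getLast (Nat.digits_ne_nil_iff_ne_zero.2 h5) ∈ Nat.digits r m := List.getLast_mem _
            have h8 := List.le_sum_of_mem h7
            omega
          omega

/-- the local data: `v_r(q^i - (-1)^i) ≤ w + v_r(i / c)` if `c ∣ i`, and `0` otherwise -/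
structure Loc (r q c w : ℕ) : Prop where
  cpos : 0 < c
  le : r ^ w ≤ q ^ c + 1
  dv : ∀ i, 0 < i → c ∣ i → padicValNat r (ph q (i - 1)) ≤ w + padicValNat r (i / c)
  nd : ∀ i, 0 < i → ¬ c ∣ i → padicValNat r (ph q (i - 1)) = 0

theorem ph_ne_zero (hq : 3 ≤ q) (i : ℕ) : ph q i ≠ 0 := by
  unfold ph
  have h1 : 3 ^ 1 ≤ q ^ (i + 1) := (Nat.pow_le_pow_left hq 1).trans (Nat.pow_le_pow_right (by omega) (by omega))
  split_ifs <;> omega

theorem ph_dvd (i : ℕ) : ph q i ∣ (q ^ 2) ^ (i + 1) - 1 := by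
  have h : (q ^ 2) ^ (i + 1) - 1 = (q ^ (i + 1) + 1) * (q ^ (i + 1) - 1) := by
    have := Nat.sq_sub_sq (q ^ (i + 1)) 1
    rw [one_pow] at this
    rw [← this, ← pow_mul, ← pow_mul, mul_comm]
  rw [h]
  unfold ph
  split_ifs
  · exact dvd_mul_right _ _
  · exact dvd_mul_left _ _

/-- `r` odd -/
theorem loc_odd (hr : r.Prime) (h2 : r ≠ 2) (hq : 3 ≤ q) (hrq : ¬ r ∣ q) : ∃ c w, Loc r q c w := by
  have := Fact.mk hr
  have hrodd : Odd r := hr.odd_of_ne_two h2
  have hq0 : (q : ZMod r) ≠ 0 := by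
    rwa [Ne, ZMod.natCast_eq_zero_iff]
  set a : ZMod r := (q : ZMod r) ^ 2 with ha
  have hfin : IsOfFinOrder a := by
    rw [isOfFinOrder_iff_pow_eq_one]
    refine ⟨r - 1, by have := hr.two_le; omega, ZMod.pow_card_sub_one_eq_one (pow_ne_zero 2 hq0)⟩
  have hpos : 0 < orderOf a := hfin.orderOf_pos
  have hiff : ∀ i, r ∣ (q ^ 2) ^ i - 1 ↔ orderOf a ∣ i := by
    intro i
    have h1 : 1 ≤ (q ^ 2) ^ i := Nat.one_le_pow _ _ (by positivity)
    rw [← ZMod.natCast_eq_zero_iff, Nat.cast_sub h1, Nat.cast_pow, Nat.cast_pow, Nat.cast_one, sub_eq_zero, ← ha,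
      orderOf_dvd_iff_pow_eq_one]
  set c := orderOf a with hc
  have hne : ∀ i, 0 < i → (q ^ 2) ^ i - 1 ≠ 0 := by
    intro i hi
    have h1 : 9 ^ 1 ≤ (q ^ 2) ^ i := by
      refine (Nat.pow_le_pow_left ?_ 1).trans (Nat.pow_le_pow_right (by positivity) hi)
      nlinarith
    omega
  refine ⟨c, padicValNat r ((q ^ 2) ^ c - 1), hpos, ?_, ?_, ?_⟩
  · have h : (q ^ 2) ^ c - 1 = (q ^ c + 1) * (q ^ c - 1) := by
      have := Nat.sq_sub_sq (q ^ c) 1
      rw [one_pow] at this
      rw [← this, ← pow_mul, ← pow_mul, mul_comm]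
    have h3 : 3 ^ 1 ≤ q ^ c := (Nat.pow_le_pow_left hq 1).trans (Nat.pow_le_pow_right (by omega) hpos)
    rw [h, padicValNat.mul (by omega) (by omega)]
    by_cases hd : r ∣ q ^ c + 1
    · have hnd : ¬ r ∣ q ^ c - 1 := by
        intro h4
        have h5 := Nat.dvd_sub hd h4
        have h6 : q ^ c + 1 - (q ^ c - 1) = 2 := by omega
        rw [h6] at h5
        exact h2 ((Nat.prime_dvd_prime_iff_eq hr Nat.prime_two).1 h5)
      rw [padicValNat.eq_zero_of_not_dvd hnd, add_zero]
      exact pow_val_le hr (by omega)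
    · rw [padicValNat.eq_zero_of_not_dvd hd, zero_add]
      exact (pow_val_le hr (by omega)).trans (by omega)
  · intro i hi hci
    obtain ⟨j, rfl⟩ := hci
    have hj : j ≠ 0 := by rintro rfl; simp at hi
    have h1 : padicValNat r (ph q (c * j - 1)) ≤ padicValNat r ((q ^ 2) ^ (c * j) - 1) := by
      have h3 := ph_dvd (q := q) (c * j - 1)
      rw [Nat.sub_add_cancel hi] at h3
      exact (padicValNat_dvd_iff_le (hne _ hi)).1 ((pow_padicValNat_dvd).trans h3)
    refine h1.trans ?_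
    rw [Nat.mul_div_cancel_left _ hpos, pow_mul]
    have h4 := padicValNat.pow_sub_pow (p := r) (x := (q ^ 2) ^ c) (y := 1) (n := j) hrodd
      (by have := hne c hpos; omega) ((hiff c).2 dvd_rfl)
      (fun h5 => hrq (hr.dvd_of_dvd_pow (hr.dvd_of_dvd_pow h5))) hj
    rw [one_pow] at h4
    rw [h4]
  · intro i hi hci
    apply padicValNat.eq_zero_of_not_dvd
    intro h3
    apply hci
    rw [← hiff]
    have h4 := ph_dvd (q := q) (i - 1)
    rw [Nat.sub_add_cancel hi] at h4
    exact h3.trans h4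

theorem odd_geom {q : ℕ} (hq : Odd q) (k : ℕ) : ∃ s, Odd s ∧ q ^ (2 * k + 1) + 1 = (q + 1) * s := by
  induction k with
  | zero => exact ⟨1, odd_one, by ring⟩
  | succ k ih =>
    obtain ⟨s, hs, h⟩ := ih
    obtain ⟨t, rfl⟩ : ∃ t, q = t + 1 := ⟨q - 1, by obtain ⟨u, rfl⟩ := hq; omega⟩
    have ht : Even t := by rwa [Nat.odd_add_one, Nat.not_odd_iff_even] at hq
    refine ⟨(t + 1) ^ 2 * s - t, ?_, ?_⟩
    · have h1 : Odd ((t + 1) ^ 2 * s) := (hq.pow).mul hs
      have h2 : t ≤ (t + 1) ^ 2 * s := by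
        have h3 : 1 ≤ s := hs.pos
        nlinarith [Nat.zero_le t, Nat.zero_le s]
      exact Nat.Odd.sub_even h2 h1 ht
    · have h2 : t ≤ (t + 1) ^ 2 * s := by
        have h3 : 1 ≤ s := hs.pos
        nlinarith [Nat.zero_le t, Nat.zero_le s]
      rw [Nat.mul_sub]
      have h3 : (t + 1 + 1) * ((t + 1) ^ 2 * s) = (t + 1) ^ 2 * ((t + 1) ^ (2 * k + 1) + 1) := by rw [h]; ring
      rw [h3]
      have h4 : (t + 1) ^ 2 * ((t + 1) ^ (2 * k + 1) + 1) = (t + 1) ^ (2 * (k + 1) + 1) + (t + 1) ^ 2 := by ring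
      rw [h4]
      have h5 : (t + 1) ^ 2 = (t + 1 + 1) * t + 1 := by ring
      omega

theorem two_loc (hq : 3 ≤ q) (hrq : ¬ 2 ∣ q) : ∃ c w, Loc 2 q c w := by
  have hodd : Odd q := by rwa [← Nat.not_even_iff_odd, even_iff_two_dvd]
  have hmin : padicValNat 2 (q + 1) = 1 ∨ padicValNat 2 (q - 1) = 1 := by
    obtain ⟨t, ht⟩ := hodd
    rcases Nat.even_or_odd t with h | h
    · left
      obtain ⟨u, rfl⟩ := h
      have h1 : q + 1 = 2 * (2 * u + 1) := by omega
      rw [h1, padicValNat.mul (by norm_num) (by omega), padicValNat.self (by norm_num),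
        padicValNat.eq_zero_of_not_dvd (by omega)]
    · right
      obtain ⟨u, rfl⟩ := h
      have h1 : q - 1 = 2 * (2 * u + 1) := by omega
      rw [h1, padicValNat.mul (by norm_num) (by omega), padicValNat.self (by norm_num),
        padicValNat.eq_zero_of_not_dvd (by omega)]
  have h1' : 1 ≤ padicValNat 2 (q + 1) := by
    obtain ⟨t, ht⟩ := hodd
    exact one_le_padicValNat_of_dvd (by omega) ⟨t + 1, by omega⟩
  have h1'' : 1 ≤ padicValNat 2 (q - 1) := by
    obtain ⟨t, ht⟩ := hodd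
    exact one_le_padicValNat_of_dvd (by omega) ⟨t, by omega⟩
  refine ⟨1, max (padicValNat 2 (q + 1)) (padicValNat 2 (q - 1)), one_pos, ?_, ?_, ?_⟩
  · rw [pow_one]
    rcases le_total (padicValNat 2 (q + 1)) (padicValNat 2 (q - 1)) with h | h
    · rw [max_eq_right h]
      exact (pow_val_le Nat.prime_two (by omega)).trans (by omega)
    · rw [max_eq_left h]
      exact pow_val_le Nat.prime_two (by omega)
  · intro i hi _
    rw [Nat.div_one]
    unfold ph
    rw [Nat.sub_add_cancel hi]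
    split_ifs with he
    · have ho : Odd i := by
        obtain ⟨j, rfl⟩ : ∃ j, i = j + 1 := ⟨i - 1, by omega⟩
        rw [Nat.add_sub_cancel] at he
        exact he.add_one
      obtain ⟨k, rfl⟩ := ho
      obtain ⟨s, hs, h⟩ := odd_geom hodd k
      rw [h, padicValNat.mul (by omega) hs.pos.ne', padicValNat.eq_zero_of_not_dvd (n := s)
        (by rw [← even_iff_two_dvd, Nat.not_even_iff_odd]; exact hs)]
      have := le_max_left (padicValNat 2 (q + 1)) (padicValNat 2 (q - 1))
      omega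
    · have he' : Even i := by
        obtain ⟨j, rfl⟩ : ∃ j, i = j + 1 := ⟨i - 1, by omega⟩
        rw [Nat.add_sub_cancel, Nat.not_even_iff_odd] at he
        exact he.add_one
      have h2 := padicValNat.pow_two_sub_one (x := q) (n := i) (by omega) hrq (by omega) he'
      have := le_max_left (padicValNat 2 (q + 1)) (padicValNat 2 (q - 1))
      have := le_max_right (padicValNat 2 (q + 1)) (padicValNat 2 (q - 1))
      omega
  · intro i _ h
    exact absurd (one_dvd i) h

theorem exists_loc (hr : r.Prime) (hq : 3 ≤ q) (hrq : ¬ r ∣ q) : ∃ c w, Loc r q c w := by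
  by_cases h2 : r = 2
  · subst h2; exact two_loc hq hrq
  · exact loc_odd hr h2 hq hrq

theorem prod_ne_zero (hq : 3 ≤ q) (m : ℕ) : ∏ i ∈ Finset.range m, ph q (i + 1) ≠ 0 :=
  Finset.prod_ne_zero_iff.2 fun i _ => ph_ne_zero hq (i + 1)

theorem Loc.one (hr : r.Prime) (hq : 3 ≤ q) {w : ℕ} (h : Loc r q 1 w) (m : ℕ) :
    padicValNat r (∏ i ∈ Finset.range m, ph q (i + 1)) ≤ w * m + padicValNat r ((m + 1).factorial) := by
  have := Fact.mk hr
  induction m with
  | zero => simp
  | succ m ih =>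
    rw [Finset.prod_range_succ, padicValNat.mul (prod_ne_zero hq m) (ph_ne_zero hq _), Nat.factorial_succ (m + 1),
      padicValNat.mul (by omega) (Nat.factorial_ne_zero _)]
    have h1 := h.dv (m + 2) (by omega) (one_dvd _)
    rw [Nat.div_one] at h1
    have h2 : m + 2 - 1 = m + 1 := by omega
    rw [h2] at h1
    have h3 : w * (m + 1) = w * m + w := by ring
    have h4 : m + 1 + 1 = m + 2 := rfl
    rw [h4]
    omega

theorem Loc.big (hr : r.Prime) (hq : 3 ≤ q) {c w : ℕ} (h : Loc r q c w) (hc : 2 ≤ c) (m : ℕ) :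
    padicValNat r (∏ i ∈ Finset.range m, ph q (i + 1)) ≤
      w * ((m + 1) / c) + padicValNat r (((m + 1) / c).factorial) := by
  have := Fact.mk hr
  induction m with
  | zero =>
    rw [Finset.prod_range_zero, padicValNat_one_right]
    exact Nat.zero_le _
  | succ m ih =>
    rw [Finset.prod_range_succ, padicValNat.mul (prod_ne_zero hq m) (ph_ne_zero hq _)]
    have h2 : m + 2 - 1 = m + 1 := by omega
    by_cases hd : c ∣ m + 1 + 1
    · rw [Nat.succ_div_of_dvd hd, Nat.factorial_succ, padicValNat.mul (a := (m + 1) / c + 1) (Nat.succ_ne_zero _) (Nat.factorial_ne_zero _)]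
      have h1 := h.dv (m + 2) (by omega) hd
      rw [h2] at h1
      have h5 : (m + 2) / c = (m + 1) / c + 1 := Nat.succ_div_of_dvd hd
      rw [h5] at h1
      have h3 : w * ((m + 1) / c + 1) = w * ((m + 1) / c) + w := by ring
      rw [h3]
      generalize padicValNat r ((m + 1) / c + 1) = y at *
      generalize w * ((m + 1) / c) = z at *
      omega
    · rw [Nat.succ_div_of_not_dvd hd]
      have h1 := h.nd (m + 2) (by omega) hd
      rw [h2] at h1
      omega

/-- **The `r`-part of `|SU_n(q)|`.** -/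
theorem rpart_le (hr : r.Prime) (hq : 3 ≤ q) (hrq : ¬ r ∣ q) {m : ℕ} (hm : 2 ≤ m) :
    r ^ padicValNat r (∏ i ∈ Finset.range m, ph q (i + 1)) ≤ q ^ (2 * m) := by
  obtain ⟨c, w, h⟩ := exists_loc hr hq hrq
  have hq2 : 2 * (q + 1) ≤ q ^ 2 := by nlinarith
  by_cases hc : c = 1
  · subst hc
    calc r ^ padicValNat r (∏ i ∈ Finset.range m, ph q (i + 1))
        ≤ r ^ (w * m + padicValNat r ((m + 1).factorial)) := Nat.pow_le_pow_right hr.pos (h.one hr hq m)
      _ = (r ^ w) ^ m * r ^ padicValNat r ((m + 1).factorial) := by rw [pow_add, pow_mul]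
      _ ≤ (q + 1) ^ m * 2 ^ m := by
          refine Nat.mul_le_mul (Nat.pow_le_pow_left ?_ m) ?_
          · have := h.le
            rwa [pow_one] at this
          · have := pow_val_factorial hr (m + 1)
            rwa [Nat.add_sub_cancel] at this
      _ = (2 * (q + 1)) ^ m := by rw [← mul_pow, mul_comm]
      _ ≤ (q ^ 2) ^ m := Nat.pow_le_pow_left hq2 m
      _ = q ^ (2 * m) := by rw [← pow_mul]
  · have hc2 : 2 ≤ c := by have := h.cpos; omega
    set k := (m + 1) / c with hk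
    have hkc : c * k ≤ m + 1 := Nat.mul_div_le _ _
    have hk2 : 2 * k ≤ m + 1 := le_trans (Nat.mul_le_mul_right k hc2) hkc
    have hqc : 2 * (q ^ c + 1) ≤ q ^ (c + 1) := by
      have h1 : 3 ^ 1 ≤ q ^ c := (Nat.pow_le_pow_left hq 1).trans (Nat.pow_le_pow_right (by omega) (by omega))
      rw [pow_succ]
      nlinarith
    calc r ^ padicValNat r (∏ i ∈ Finset.range m, ph q (i + 1))
        ≤ r ^ (w * k + padicValNat r (k.factorial)) := Nat.pow_le_pow_right hr.pos (h.big hr hq hc2 m)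
      _ = (r ^ w) ^ k * r ^ padicValNat r (k.factorial) := by rw [pow_add, pow_mul]
      _ ≤ (q ^ c + 1) ^ k * 2 ^ k := by
          refine Nat.mul_le_mul (Nat.pow_le_pow_left h.le k) ?_
          exact (pow_val_factorial hr k).trans (Nat.pow_le_pow_right (by norm_num) (by omega))
      _ = (2 * (q ^ c + 1)) ^ k := by rw [← mul_pow, mul_comm]
      _ ≤ (q ^ (c + 1)) ^ k := Nat.pow_le_pow_left hqc k
      _ = q ^ (c * k + k) := by rw [← pow_mul]; ring_nf
      _ ≤ q ^ (2 * m) := Nat.pow_le_pow_right (by omega) (by omega)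

end Cfsg.Agent.H985.UT.RPart
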